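import Mathlib

/-!
# Isomorphism from a group of pairs
-/

set_option autoImplicit false

namespace H34.PairIso

/-- If a subgroup `Γ` of `G × C` projects onto `H ≤ G`, has no `(g, 1)` with `g ≠ 1`, and `|C| ≤ |H|`, then
`H ≃* C`. -/
theorem iso_of_pairs {G C : Type*} [Group G] [Group C] [Finite C] (Γ : Subgroup (G × C)) (H : Subgroup G)
    (hH : Γ.map (MonoidHom.fst G C) = H) (hinj : ∀ g : G, (g, (1 : C)) ∈ Γ → g = 1)
    (hc : Nat.card C ≤ Nat.card H) : Nonempty (H ≃* C) := by
  subst hH
  let f2 : Γ →* C := (MonoidHom.snd G C).comp Γ.subtype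
  have h2 : Function.Injective f2 := by
    rw [injective_iff_map_eq_one]
    rintro ⟨⟨g, s⟩, hg⟩ h
    have hs : s = 1 := h
    subst hs
    have := hinj g hg
    subst this
    rfl
  have hfin : Finite Γ := Finite.of_injective _ h2
  let f1 : Γ →* Γ.map (MonoidHom.fst G C) := (MonoidHom.fst G C).subgroupMap Γ
  have h1 : Function.Surjective f1 := (MonoidHom.fst G C).subgroupMap_surjective Γ
  have c1 : Nat.card (Γ.map (MonoidHom.fst G C)) ≤ Nat.card Γ := Nat.card_le_card_of_surjective _ h1
  have c2 : Nat.card Γ ≤ Nat.card C := Nat.card_le_card_of_injective _ h2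
  have hfin1 : Finite (Γ.map (MonoidHom.fst G C)) := Finite.of_surjective _ h1
  have b1 : Function.Bijective f1 := by
    refine ⟨?_, h1⟩
    have : Fintype Γ := Fintype.ofFinite _
    have : Fintype (Γ.map (MonoidHom.fst G C)) := Fintype.ofFinite _
    refine ((Fintype.bijective_iff_surjective_and_card f1).2 ⟨h1, ?_⟩).1
    rw [← Nat.card_eq_fintype_card, ← Nat.card_eq_fintype_card]
    omega
  have b2 : Function.Bijective f2 := by
    have : Fintype Γ := Fintype.ofFinite _
    have : Fintype C := Fintype.ofFinite _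
    refine (Fintype.bijective_iff_injective_and_card f2).2 ⟨h2, ?_⟩
    rw [← Nat.card_eq_fintype_card, ← Nat.card_eq_fintype_card]
    omega
  exact ⟨(MulEquiv.ofBijective f1 b1).symm.trans (MulEquiv.ofBijective f2 b2)⟩

end H34.PairIso
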