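import Cfsg.Agent.Lib.H34.G24Run
import Cfsg.Agent.Lib.H34.PairIso
import Cfsg.Agent.Lib.H22.ChevAll
import Cfsg.Agent.Lib.H22.ChevMain
import Cfsg.Agent.S1059

/-!
# G2(4) in Suz
-/

set_option autoImplicit false
set_option maxRecDepth 100000
set_option linter.all false

namespace H34.G24

open H17 H35.Net H34.F4Code H35.TC
open H35.SuzMain (φ gP hφ i1 H1)
open scoped Matrix

theorem R : H22.ChevRel.Rel D F4 := H22.ChevAll.rel D (by simp) F4

/-- root element -/
noncomputable def rg (a : RE) : GL D.Idx F4 := H22.ChevRel.xg R a.r.1 (cf a.t)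

theorem rg_val (a : RE) : ((rg a : GL D.Idx F4) : Matrix D.Idx D.Idx F4) = a.mt := by
  rw [rg, H22.ChevRel.xg_val, RE.mt]
  have hr : a.r.1 < D.nroots := a.r.2
  exact dif_pos hr

theorem rg_mem (a : RE) : rg a ∈ D.group F4 := H22.ChevMain.xg_mem_group R a.r.2 _

/-- the matched element of G2(4) -/
noncomputable def Mg (x : LB) : D.group F4 :=
  ⟨((wd x).map rg).prod, Subgroup.list_prod_mem _ (by
    intro g hg
    obtain ⟨a, _, rfl⟩ := List.mem_map.1 hg
    exact rg_mem a)⟩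

theorem Mg_val (x : LB) : (((Mg x : D.group F4) : GL D.Idx F4) : Matrix D.Idx D.Idx F4) = ((wd x).map RE.mt).prod := by
  change ((((wd x).map rg).prod : GL D.Idx F4) : Matrix D.Idx D.Idx F4) = _
  generalize wd x = w
  induction w with
  | nil => rfl
  | cons a w ih =>
    rw [List.map_cons, List.map_cons, List.prod_cons, List.prod_cons, Units.val_mul, ih, rg_val]

theorem fixhi (x : H35.TCSuzA.Lt) : ∀ k, 1782 ≤ k → H35.NSuz.π x k = k := H35.NSuz.fix_hi x

theorem gen_ok (x : LB) (k : ℕ) :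
    Sm ((((Mg x : D.group F4) : GL D.Idx F4) : Matrix D.Idx D.Idx F4) *ᵥ vec k) (vec (φ (gP (i1 x)) k)) := by
  rw [Mg_val, hφ]
  have h1 := gt1_ok x
  have h2 := gt2_ok x
  have h3 := gt3_ok x
  cases x
  · exact chkX_spec (H35.NSuz.hbp .a) (fixhi .a) h1 h2 h3 c_a k
  · exact chkX_spec (H35.NSuz.hbp .b) (fixhi .b) h1 h2 h3 c_b k
  · exact chkX_spec (H35.NSuz.hbp .c) (fixhi .c) h1 h2 h3 c_c k
  · exact chkX_spec (H35.NSuz.hbp .d) (fixhi .d) h1 h2 h3 c_d k
  · exact chkX_spec (H35.NSuz.hbp .e) (fixhi .e) h1 h2 h3 c_e k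
  · exact chkX_spec (H35.NSuz.hbp .f) (fixhi .f) h1 h2 h3 c_f k

/-- the invariant -/
def P (p : Cfsg.Spor.Suz × D.group F4) : Prop :=
  ∀ k, Sm (((p.2 : GL D.Idx F4) : Matrix D.Idx D.Idx F4) *ᵥ vec k) (vec (φ p.1 k))

/-- the group of pairs -/
noncomputable def Γ : Subgroup (Cfsg.Spor.Suz × D.group F4) := Subgroup.closure (Set.range fun x => (gP (i1 x), Mg x))

theorem mem_P {p : Cfsg.Spor.Suz × D.group F4} (hp : p ∈ Γ) : P p := by
  unfold Γ at hp
  induction hp using Subgroup.closure_induction with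
  | mem p hp =>
    obtain ⟨x, rfl⟩ := hp
    exact gen_ok x
  | one =>
    intro k
    change Sm ((1 : Matrix D.Idx D.Idx F4) *ᵥ vec k) (vec (φ 1 k))
    rw [Matrix.one_mulVec, map_one]
    exact Sm.refl _
  | mul p q _ _ hp hq =>
    intro k
    change Sm ((((p.2 : GL D.Idx F4) : Matrix D.Idx D.Idx F4) * ((q.2 : GL D.Idx F4) : Matrix D.Idx D.Idx F4)) *ᵥ vec k)
      (vec (φ (p.1 * q.1) k))
    rw [← Matrix.mulVec_mulVec, map_mul, Equiv.Perm.mul_apply]
    exact ((hq k).mulVec _).trans (hp _)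
  | inv p _ hp =>
    intro k
    have h := hp ((φ p.1)⁻¹ k)
    have e : φ p.1 ((φ p.1)⁻¹ k) = k := (φ p.1).apply_symm_apply k
    rw [e] at h
    have h2 := h.mulVec ((p.2⁻¹ : D.group F4) : GL D.Idx F4).val
    have e2 : (((p.2⁻¹ : D.group F4) : GL D.Idx F4) : Matrix D.Idx D.Idx F4) *ᵥ
        (((p.2 : GL D.Idx F4) : Matrix D.Idx D.Idx F4) *ᵥ vec ((φ p.1)⁻¹ k)) = vec ((φ p.1)⁻¹ k) := by
      rw [Matrix.mulVec_mulVec, ← Units.val_mul, ← Subgroup.coe_mul, inv_mul_cancel]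
      change (1 : Matrix D.Idx D.Idx F4) *ᵥ _ = _
      rw [Matrix.one_mulVec]
    rw [e2] at h2
    change Sm ((((p.2⁻¹ : D.group F4) : GL D.Idx F4) : Matrix D.Idx D.Idx F4) *ᵥ vec k) (vec (φ p.1⁻¹ k))
    rw [map_inv]
    exact h2.symm

theorem fst_map : Γ.map (MonoidHom.fst Cfsg.Spor.Suz (D.group F4)) = H1 := by
  unfold Γ H1
  rw [MonoidHom.map_closure, ← Set.range_comp]
  rfl

theorem H1_fix : ∀ h ∈ H1, φ h 0 = 0 := by
  intro h hh
  have hle : H1 ≤ (MulAction.stabilizer (Equiv.Perm ℕ) (0 : ℕ)).comap φ := by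
    unfold H1
    rw [Subgroup.closure_le]
    rintro _ ⟨x, rfl⟩
    change φ (gP (i1 x)) 0 = 0
    have h1 := H35.NSuz.subs_fix0
    rw [hφ]
    cases x
    · exact h1 [.a] (by simp [H35.TCSuzA.subs])
    · exact h1 [.b] (by simp [H35.TCSuzA.subs])
    · exact h1 [.c] (by simp [H35.TCSuzA.subs])
    · exact h1 [.d] (by simp [H35.TCSuzA.subs])
    · exact h1 [.e] (by simp [H35.TCSuzA.subs])
    · exact h1 [.f] (by simp [H35.TCSuzA.subs])
  exact hle hh

theorem vec_ne {b : ℕ} (h : Nat.beq (vecN b) 0 = false) : vec b ≠ 0 := by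
  intro e
  have h1 : ∀ j : Fin 14, dgt (vecN b) j = 0 := by
    intro j
    obtain ⟨i, hi⟩ := pos_surj j
    have h2 : cf (dgt (vecN b) (pos i)) = cf 0 := congrFun e i
    rw [hi] at h2
    exact cf_inj' (dgt_lt _ _) (by norm_num) h2
  have h3 : vecN b < 2 ^ 28 := by
    have : Nat.land (Nat.shiftRight VT (Nat.mul 28 b)) 268435455 ≤ 268435455 := Nat.and_le_right
    change Nat.land (Nat.shiftRight VT (Nat.mul 28 b)) 268435455 < 2 ^ 28
    omega
  have h4 : vecN b = 0 := by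
    apply Nat.eq_of_testBit_eq
    intro r
    rw [Nat.zero_testBit]
    rcases Nat.lt_or_ge r 28 with hr | hr
    · have h5 := h1 ⟨r / 2, by omega⟩
      have h6 : ((vecN b >>> (2 * (r / 2))) &&& 3) = 0 := h5
      have h7 := congrArg (fun z => z.testBit (r % 2)) h6
      simp only [Nat.testBit_and, Nat.testBit_shiftRight, Nat.zero_testBit] at h7
      have h8 : 2 * (r / 2) + r % 2 = r := by omega
      rw [h8] at h7
      have h9 : (3 : ℕ).testBit (r % 2) = true := by
        rcases Nat.mod_two_eq_zero_or_one r with h | h <;> rw [h] <;> decide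
      rw [h9, Bool.and_true] at h7
      exact h7
    · exact Nat.testBit_lt_two_pow (lt_of_lt_of_le h3 (Nat.pow_le_pow_right (by norm_num) hr))
  rw [h4] at h
  exact absurd h (by decide)

theorem stabs_one : Nat.card (stabs φ.range [458, 2, 1, 0]) ≤ 1 := by
  have := H35.SuzMain.fin
  have : Finite φ.range := Finite.of_surjective _ φ.rangeRestrict_surjective
  obtain ⟨hcard, hinj⟩ := H35.SuzMain.card_inj
  have hr : Nat.card φ.range = 448345497600 := by
    rw [← hcard]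
    exact (Nat.card_congr (MonoidHom.ofInjective hinj).toEquiv).symm
  have hΓ := H35.SuzMain.mem_range
  have h4 : 180 * Nat.card (stabs φ.range [458, 2, 1, 0]) ≤ Nat.card (stabs φ.range [2, 1, 0]) :=
    chain_stepF H35.NSuz.hbp hΓ vf_3 vo_3 le_rfl
  have h3 : 1024 * Nat.card (stabs φ.range [2, 1, 0]) ≤ Nat.card (stabs φ.range [1, 0]) :=
    chain_stepF H35.NSuz.hbp hΓ vf_2 vo_2 le_rfl
  have h2 : 1365 * Nat.card (stabs φ.range [1, 0]) ≤ Nat.card (stabs φ.range [0]) :=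
    chain_stepF H35.NSuz.hbp hΓ vf_1 vo_1 le_rfl
  have h1 : 1782 * Nat.card (stabs φ.range [0]) ≤ Nat.card φ.range :=
    chain_stepT H35.NSuz.hbp hΓ H35.NSuz.nb_0 le_rfl
  rw [hr] at h1
  omega

theorem inj (g : Cfsg.Spor.Suz) (hg : (g, (1 : D.group F4)) ∈ Γ) : g = 1 := by
  have hH : g ∈ H1 := by
    rw [← fst_map]
    exact ⟨_, hg, rfl⟩
  have h0 := H1_fix g hH
  have hP := mem_P hg
  have hb : ∀ b, chkD b = true → Nat.beq (vecN b) 0 = false → φ g b = b := by
    intro b h1 h2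
    have h3 : Sm ((1 : Matrix D.Idx D.Idx F4) *ᵥ vec b) (vec (φ g b)) := hP b
    rw [Matrix.one_mulVec] at h3
    exact chkD_spec h1 (vec_ne h2) h3.symm
  have h1 := hb 1 d_1 z_1
  have h2 := hb 2 d_2 z_2
  have h3 := hb 458 d_458 z_458
  have hm : φ g ∈ stabs φ.range [458, 2, 1, 0] := by
    refine mem_stabs (MonoidHom.mem_range.2 ⟨g, rfl⟩) ?_
    intro b hb
    simp only [List.mem_cons, List.not_mem_nil, or_false] at hb
    rcases hb with rfl | rfl | rfl | rfl <;> assumption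
  have := H35.SuzMain.fin
  have : Finite φ.range := Finite.of_surjective _ φ.rangeRestrict_surjective
  obtain ⟨hcard, hinj⟩ := H35.SuzMain.card_inj
  have hbot : stabs φ.range [458, 2, 1, 0] = ⊥ := Subgroup.card_le_one_iff_eq_bot _ |>.1 stabs_one
  rw [hbot, Subgroup.mem_bot] at hm
  exact hinj (by rw [hm, map_one])

theorem card_H1 : 251596800 ≤ Nat.card H1 := by
  have h := H35.SuzMain.idx0
  rw [H35.SuzMain.H0_top, Subgroup.relIndex_top_right] at h
  have h2 := Subgroup.card_mul_index H1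
  rw [H35.SuzMain.card_inj.1] at h2
  by_contra hc
  have h3 : Nat.card H1 ≤ 251596799 := by omega
  have h4 : Nat.card H1 * H1.index ≤ 251596799 * 1782 := Nat.mul_le_mul h3 h.1
  omega

theorem card_C : Nat.card (D.group F4) = 251596800 := by
  rw [Cfsg.Agent.S1059.result (F := F4) (q := 4) F4.card]
  norm_num

/-- **G2(4) in Suz** -/
theorem main : Nonempty (H1 ≃* D.group F4) := by
  have : Finite (D.group F4) := Nat.finite_of_card_ne_zero (by rw [card_C]; norm_num)
  exact PairIso.iso_of_pairs Γ H1 fst_map inj (by rw [card_C]; exact card_H1)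

end H34.G24
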