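import Cfsg.Agent.Lib.H34.F4Code
import Cfsg.Agent.Lib.H34.G24Data
import Cfsg.Agent.Lib.H35.NSuz.Net
import Cfsg.Agent.Lib.H23.ChevSym
import Cfsg.Prelude.Def_ChevG2

/-!
# G2(4) in Suz: packed vectors of the adjoint module, and the kernel checks
-/

set_option autoImplicit false
set_option maxRecDepth 100000
set_option linter.all false

namespace H34.G24

open H17 H35.Net H34.F4Code
open scoped Matrix

/-- the datum -/
abbrev D : Cfsg.Lie.ChevalleyDatum := Cfsg.Lie.chevG2

/-- digit -/
def dgt (v j : ℕ) : ℕ := Nat.land (Nat.shiftRight v (Nat.mul 2 j)) 3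

theorem dgt_lt (v j : ℕ) : dgt v j < 4 := by
  have : Nat.land (Nat.shiftRight v (Nat.mul 2 j)) 3 ≤ 3 := Nat.and_le_right
  change Nat.land _ 3 < 4
  omega

theorem dgt_xor (a b j : ℕ) : dgt (Nat.xor a b) j = Nat.xor (dgt a j) (dgt b j) := by
  change ((a ^^^ b) >>> (2 * j)) &&& 3 = ((a >>> (2 * j)) &&& 3) ^^^ ((b >>> (2 * j)) &&& 3)
  rw [Nat.shiftRight_xor_distrib, Nat.and_xor_distrib_right]

/-- position of a basis vector -/
def pos : D.Idx → ℕ := Sum.elim (fun i => i.1) (fun u => Nat.add 2 u.1)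

/-- the vector of a code -/
def dcv (v : ℕ) : D.Idx → F4 := fun i => cf (dgt v (pos i))

theorem dcv_xor (a b : ℕ) : dcv (Nat.xor a b) = dcv a + dcv b := by
  funext i
  change cf (dgt (Nat.xor a b) (pos i)) = cf (dgt a (pos i)) + cf (dgt b (pos i))
  rw [dgt_xor, cf_add' (dgt_lt _ _) (dgt_lt _ _)]

theorem dcv_zero : dcv 0 = 0 := by
  funext i
  change cf (dgt 0 (pos i)) = 0
  have : dgt 0 (pos i) = 0 := by
    change (0 >>> (2 * pos i)) &&& 3 = 0
    simp
  rw [this]
  rfl

/-- table entry -/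
noncomputable def ent (T j c : ℕ) : ℕ :=
  Nat.land (Nat.shiftRight T (Nat.mul 28 (Nat.add (Nat.mul 4 j) c))) 268435455

/-- apply a table -/
noncomputable def linN (T v n : ℕ) : ℕ :=
  Nat.rec (motive := fun _ => ℕ) 0 (fun j ih => Nat.xor ih (ent T j (dgt v j))) n

/-- apply a table -/
noncomputable def lin (T v : ℕ) : ℕ := linN T v 14

theorem dcv_linN (T v n : ℕ) : dcv (linN T v n) = ∑ j ∈ Finset.range n, dcv (ent T j (dgt v j)) := by
  induction n with
  | zero => exact dcv_zero
  | succ n ih =>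
    change dcv (Nat.xor (linN T v n) (ent T n (dgt v n))) = _
    rw [dcv_xor, ih, Finset.sum_range_succ]

theorem sum_idx (g : ℕ → D.Idx → F4) : ∑ j ∈ Finset.range 14, g j = ∑ i : D.Idx, g (pos i) := by
  rw [show (14 : ℕ) = 2 + 12 from rfl, Finset.sum_range_add, Fintype.sum_sum_type, Finset.sum_range, Finset.sum_range]
  rfl

/-- the table describes the matrix -/
def RepE (T : ℕ) (M : Matrix D.Idx D.Idx F4) : Prop :=
  ∀ (j : D.Idx) (c : ℕ), c < 4 → dcv (ent T (pos j) c) = fun i => M i j * cf c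

theorem rep {T : ℕ} {M : Matrix D.Idx D.Idx F4} (h : RepE T M) (v : ℕ) : dcv (lin T v) = M *ᵥ dcv v := by
  rw [lin, dcv_linN, sum_idx (fun j => dcv (ent T j (dgt v j)))]
  funext i
  rw [Finset.sum_apply]
  change _ = ∑ j, M i j * dcv v j
  apply Finset.sum_congr rfl
  intro j _
  rw [h j _ (dgt_lt v _)]
  rfl

/-- apply several tables, the first one last -/
noncomputable def foldL (Ts : List ℕ) (v : ℕ) : ℕ :=
  List.rec (motive := fun _ => ℕ) v (fun T _ ih => force ih fun y => lin T y) Ts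

theorem foldL_cons (T : ℕ) (Ts : List ℕ) (v : ℕ) : foldL (T :: Ts) v = lin T (foldL Ts v) := force_eq _ _

theorem foldL_rep {α : Type} (tb : α → ℕ) (mt : α → Matrix D.Idx D.Idx F4) (w : List α)
    (h : ∀ a ∈ w, RepE (tb a) (mt a)) (v : ℕ) :
    dcv (foldL (w.map tb) v) = (w.map mt).prod *ᵥ dcv v := by
  induction w with
  | nil =>
    change dcv v = (1 : Matrix D.Idx D.Idx F4) *ᵥ dcv v
    rw [Matrix.one_mulVec]
  | cons a w ih =>
    rw [List.map_cons, List.map_cons, List.prod_cons, foldL_cons, rep (h a (by simp)), ih (fun b hb => h b (by simp [hb])),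
      Matrix.mulVec_mulVec]

/-- unit vector times a scalar -/
def unitN (j c : ℕ) : ℕ := Nat.shiftLeft c (Nat.mul 2 j)

theorem dcv_unit : ∀ (j i : D.Idx) (c : Fin 4), cf (dgt (unitN (pos j) c) (pos i)) = if i = j then cf c else 0 := by
  decide +kernel

theorem dcv_unit' (j : D.Idx) {c : ℕ} (hc : c < 4) : dcv (unitN (pos j) c) = Pi.single j (cf c) := by
  funext i
  rw [Pi.single_apply]
  exact dcv_unit j i ⟨c, hc⟩

/-- kernel check: the table `T` is `s` times the product of the tables `Ts` -/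
noncomputable def chkW (T s : ℕ) (Ts : List ℕ) : Bool :=
  allB (fun j => allB (fun c => Nat.beq (ent T j c) (foldL Ts (unitN j (mulN s c)))) 4) 14

theorem pos_lt : ∀ j : D.Idx, pos j < 14 := by decide +kernel

theorem chkW_spec {α : Type} (tb : α → ℕ) (mt : α → Matrix D.Idx D.Idx F4) (w : List α)
    (h : ∀ a ∈ w, RepE (tb a) (mt a)) {T s : ℕ} (hs : s < 4) (hc : chkW T s (w.map tb) = true) :
    RepE T (cf s • (w.map mt).prod) := by
  intro j c hcl
  have h1 := Nat.eq_of_beq_eq_true (allB_spec (allB_spec hc (pos j) (pos_lt j)) c hcl)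
  rw [h1, foldL_rep tb mt w h, dcv_unit' j (mulN_lt _ _), cf_mul' hs hcl, Matrix.mulVec_single]
  funext i
  simp only [Matrix.smul_apply, smul_eq_mul, Pi.smul_apply, MulOpposite.smul_eq_mul_unop, MulOpposite.unop_op, Matrix.col_apply]
  ring

/-! ### permutation images from planes -/

/-- evaluate all entries of a list -/
noncomputable def forceL {α : Type} (l : List ℕ) : (List ℕ → α) → α :=
  List.rec (motive := fun _ => (List ℕ → α) → α) (fun k => k [])
    (fun P _ ih k => force P fun y => ih fun ys => k (y :: ys)) l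

theorem forceL_eq {α : Type} (l : List ℕ) (k : List ℕ → α) : forceL l k = k l := by
  induction l generalizing k with
  | nil => rfl
  | cons P l ih =>
    change force P (fun y => forceL l fun ys => k (y :: ys)) = _
    rw [force_eq, ih]

/-- the number with bits `P_r(k)` -/
noncomputable def bitsL (Ps : List ℕ) (k : ℕ) : ℕ :=
  List.rec (motive := fun _ => ℕ) 0 (fun P _ ih => Nat.add (Nat.land (Nat.shiftRight P k) 1) (Nat.mul 2 ih)) Ps

theorem bitsL_bit (Ps : List ℕ) (k r : ℕ) : (bitsL Ps k).testBit r = (Ps.getD r 0).testBit k := by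
  induction Ps generalizing r with
  | nil =>
    change (0 : ℕ).testBit r = _
    simp
  | cons P Ps ih =>
    have e : bitsL (P :: Ps) k = (P >>> k) % 2 + 2 * bitsL Ps k := by
      have : bitsL (P :: Ps) k = ((P >>> k) &&& 1) + 2 * bitsL Ps k := rfl
      rw [this, Nat.and_one_is_mod]
    rw [e]
    cases r with
    | zero =>
      rw [Nat.testBit_zero, List.getD_cons_zero]
      have h2 : P.testBit k = ((P >>> k) % 2 == 1) := by
        rw [Nat.testBit_eq_decide_div_mod_eq, Nat.shiftRight_eq_div_pow]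
        rfl
      rw [h2]
      rcases Nat.mod_two_eq_zero_or_one (P >>> k) with h | h <;> simp [h]
    | succ r =>
      rw [Nat.testBit_succ, List.getD_cons_succ, ← ih]
      congr 1
      rcases Nat.mod_two_eq_zero_or_one (P >>> k) with h | h <;> omega

/-- images of the index planes -/
noncomputable def planes (f : ℕ → ℕ) : List ℕ :=
  [f (ipl 0 11), f (ipl 1 11), f (ipl 2 11), f (ipl 3 11), f (ipl 4 11), f (ipl 5 11), f (ipl 6 11), f (ipl 7 11),
    f (ipl 8 11), f (ipl 9 11), f (ipl 10 11)]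

theorem planes_getD (f : ℕ → ℕ) : ∀ r, r < 11 → (planes f).getD r 0 = f (ipl r 11) := by
  intro r hr
  interval_cases r <;> rfl

theorem planes_getD' (f : ℕ → ℕ) (r : ℕ) (hr : 11 ≤ r) : (planes f).getD r 0 = 0 := by
  rw [List.getD_eq_default]
  exact hr

theorem bitsL_planes {f : ℕ → ℕ} {π : Equiv.Perm ℕ} (hf : BP (2 ^ 11) f π) {k : ℕ} (hk : k < 2 ^ 11) :
    bitsL (planes f) k = π k := by
  have hk' : π k < 2 ^ 11 := (hf.lt_iff k).2 hk
  apply Nat.eq_of_testBit_eq
  intro r
  rw [bitsL_bit]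
  rcases Nat.lt_or_ge r 11 with hr | hr
  · rw [planes_getD f r hr, hf.bit, ipl_bit r 11 _ hk']
  · rw [planes_getD' f r hr, Nat.zero_testBit,
      Nat.testBit_lt_two_pow (lt_of_lt_of_le hk' (Nat.pow_le_pow_right (by norm_num) hr))]

/-! ### the labels -/

/-- label of a point -/
noncomputable def vecN (k : ℕ) : ℕ := Nat.land (Nat.shiftRight VT (Nat.mul 28 k)) 268435455

/-- label of a point -/
noncomputable def vec (k : ℕ) : D.Idx → F4 := dcv (vecN k)

theorem VT_lt : Nat.blt VT (Nat.pow 2 49896) = true := by decide +kernel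

theorem vecN_hi (k : ℕ) (hk : 1782 ≤ k) : vecN k = 0 := by
  have h1 : VT < 2 ^ 49896 := by
    have := VT_lt
    simpa [Nat.blt] using Nat.le_of_ble_eq_true this
  have h2 : VT >>> (28 * k) = 0 := by
    rw [Nat.shiftRight_eq_div_pow]
    apply Nat.div_eq_of_lt
    refine lt_of_lt_of_le h1 (Nat.pow_le_pow_right (by norm_num) (by omega))
  change (VT >>> (28 * k)) &&& 268435455 = 0
  rw [h2, Nat.zero_and]

/-- kernel check of a generator -/
noncomputable def chkX (f : ℕ → ℕ) (T1 T2 T3 : ℕ) : Bool :=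
  forceL (planes f) fun Ps => allB (fun k => force (vecN k) fun v => force (vecN (bitsL Ps k)) fun z =>
    Bool.rec (Bool.rec (Nat.beq (lin T3 v) z) true (Nat.beq (lin T2 v) z)) true (Nat.beq (lin T1 v) z)) 1782

/-- proportional -/
def Sm (u v : D.Idx → F4) : Prop := ∃ c : F4, c ≠ 0 ∧ u = c • v

theorem Sm.refl (u : D.Idx → F4) : Sm u u := ⟨1, one_ne_zero, (one_smul _ _).symm⟩

theorem Sm.symm {u v : D.Idx → F4} (h : Sm u v) : Sm v u := by
  obtain ⟨c, hc, rfl⟩ := h
  exact ⟨c⁻¹, inv_ne_zero hc, by rw [smul_smul, inv_mul_cancel₀ hc, one_smul]⟩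

theorem Sm.trans {u v w : D.Idx → F4} (h : Sm u v) (h' : Sm v w) : Sm u w := by
  obtain ⟨c, hc, rfl⟩ := h
  obtain ⟨d, hd, rfl⟩ := h'
  exact ⟨c * d, mul_ne_zero hc hd, by rw [smul_smul]⟩

theorem Sm.mulVec {u v : D.Idx → F4} (h : Sm u v) (M : Matrix D.Idx D.Idx F4) : Sm (M *ᵥ u) (M *ᵥ v) := by
  obtain ⟨c, hc, rfl⟩ := h
  exact ⟨c, hc, Matrix.mulVec_smul _ _ _⟩

theorem cf_ne : cf 1 ≠ 0 ∧ cf 2 ≠ 0 ∧ cf 3 ≠ 0 := by decide

theorem chkX_spec {f : ℕ → ℕ} {π : Equiv.Perm ℕ} (hf : BP (2 ^ 11) f π) (hpi : ∀ k, 1782 ≤ k → π k = k)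
    {T1 T2 T3 : ℕ} {M : Matrix D.Idx D.Idx F4} (h1 : RepE T1 (cf 1 • M)) (h2 : RepE T2 (cf 2 • M))
    (h3 : RepE T3 (cf 3 • M)) (hc : chkX f T1 T2 T3 = true) (k : ℕ) : Sm (M *ᵥ vec k) (vec (π k)) := by
  rcases Nat.lt_or_ge k 1782 with hk | hk
  · rw [chkX, forceL_eq] at hc
    have h := allB_spec hc k hk
    rw [force_eq, force_eq, bitsL_planes hf (by omega)] at h
    cases e1 : Nat.beq (lin T1 (vecN k)) (vecN (π k)) with
    | true =>
      have e := Nat.eq_of_beq_eq_true e1
      apply Sm.symm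
      refine ⟨cf 1, cf_ne.1, ?_⟩
      rw [vec, ← e, rep h1, Matrix.smul_mulVec]
      rfl
    | false =>
      rw [e1] at h
      cases e2 : Nat.beq (lin T2 (vecN k)) (vecN (π k)) with
      | true =>
        have e := Nat.eq_of_beq_eq_true e2
        apply Sm.symm
        refine ⟨cf 2, cf_ne.2.1, ?_⟩
        rw [vec, ← e, rep h2, Matrix.smul_mulVec]
        rfl
      | false =>
        rw [e2] at h
        have e := Nat.eq_of_beq_eq_true (h : Nat.beq (lin T3 (vecN k)) (vecN (π k)) = true)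
        apply Sm.symm
        refine ⟨cf 3, cf_ne.2.2, ?_⟩
        rw [vec, ← e, rep h3, Matrix.smul_mulVec]
        rfl
  · rw [hpi k hk]
    have e : vec k = 0 := by rw [vec, vecN_hi k hk, dcv_zero]
    rw [e, Matrix.mulVec_zero]
    exact Sm.refl _

theorem allB_of {f : Nat → Bool} : ∀ {n : Nat}, (∀ k, k < n → f k = true) → allB f n = true := by
  intro n
  induction n with
  | zero => intro _; rfl
  | succ n ih =>
    intro h
    change (Bool.rec false (allB f n) (f n) : Bool) = true
    rw [h n (Nat.lt_succ_self n)]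
    exact ih fun k hk => h k (Nat.lt_succ_of_lt hk)

/-- kernel check: `u ≠ c v` -/
noncomputable def nsim (u v c : ℕ) : Bool :=
  Bool.rec true false (allB (fun j => Nat.beq (dgt u j) (mulN c (dgt v j))) 14)

theorem cf_inj : ∀ a b : Fin 4, cf a = cf b → a = b := by decide

theorem cf_inj' {a b : ℕ} (ha : a < 4) (hb : b < 4) (h : cf a = cf b) : a = b := by
  have := cf_inj ⟨a, ha⟩ ⟨b, hb⟩ h
  exact congrArg Fin.val this

theorem pos_surj : ∀ j : Fin 14, ∃ i : D.Idx, pos i = j.1 := by decide +kernel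

theorem nsim_spec {u v c : ℕ} (hc : c < 4) (h : nsim u v c = true) : dcv u ≠ cf c • dcv v := by
  intro e
  have h1 : allB (fun j => Nat.beq (dgt u j) (mulN c (dgt v j))) 14 = true := by
    apply allB_of
    intro j hj
    obtain ⟨i, hi⟩ := pos_surj ⟨j, hj⟩
    have h2 : cf (dgt u j) = cf c * cf (dgt v j) := by
      have := congrFun e i
      simp only [dcv, hi, Pi.smul_apply, smul_eq_mul] at this
      exact this
    rw [← cf_mul' hc (dgt_lt _ _)] at h2
    have h3 := cf_inj' (dgt_lt _ _) (mulN_lt _ _) h2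
    rw [h3]
    exact Nat.beq_refl _
  unfold nsim at h
  rw [h1] at h
  exact absurd h Bool.false_ne_true

theorem F4_cases : ∀ c : F4, c ≠ 0 → c = cf 1 ∨ c = cf 2 ∨ c = cf 3 := by decide

/-- kernel check: only the point `b` has a label proportional to that of `b` -/
noncomputable def chkD (b : ℕ) : Bool :=
  force (vecN b) fun v => allB (fun k => Bool.rec (force (vecN k) fun u =>
    Bool.rec false (Bool.rec false (nsim u v 3) (nsim u v 2)) (nsim u v 1)) true (Nat.beq k b)) 1782

theorem chkD_spec {b : ℕ} (hb : chkD b = true) (hb0 : vec b ≠ 0) {k : ℕ} (h : Sm (vec k) (vec b)) : k = b := by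
  rcases Nat.lt_or_ge k 1782 with hk | hk
  · rw [chkD, force_eq] at hb
    have h1 := allB_spec hb k hk
    cases e : Nat.beq k b with
    | true => exact Nat.eq_of_beq_eq_true e
    | false =>
      exfalso
      rw [e] at h1
      change (force (vecN k) fun u =>
        (Bool.rec false (Bool.rec false (nsim u (vecN b) 3) (nsim u (vecN b) 2)) (nsim u (vecN b) 1) : Bool)) = true at h1
      rw [force_eq] at h1
      obtain ⟨c, hc, hcv⟩ := h
      cases e1 : nsim (vecN k) (vecN b) 1 with
      | false => rw [e1] at h1; exact Bool.false_ne_true h1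
      | true =>
        rw [e1] at h1
        cases e2 : nsim (vecN k) (vecN b) 2 with
        | false => rw [e2] at h1; exact Bool.false_ne_true h1
        | true =>
          rw [e2] at h1
          have e3 : nsim (vecN k) (vecN b) 3 = true := h1
          rcases F4_cases c hc with rfl | rfl | rfl
          · exact nsim_spec (by norm_num) e1 hcv
          · exact nsim_spec (by norm_num) e2 hcv
          · exact nsim_spec (by norm_num) e3 hcv
  · exfalso
    have e : vec k = 0 := by rw [vec, vecN_hi k hk, dcv_zero]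
    rw [e] at h
    obtain ⟨c, hc, hcv⟩ := h
    apply hb0
    rcases smul_eq_zero.1 hcv.symm with h1 | h1
    · exact absurd h1 hc
    · exact h1

end H34.G24
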