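import Cfsg.Agent.Lib.H34.G24Chk
import Cfsg.Agent.Lib.H35.NSuz.Orb
import Cfsg.Agent.Lib.H35.SuzMain

/-!
# G2(4) in Suz: kernel checks
-/

set_option autoImplicit false
set_option maxRecDepth 100000
set_option linter.all false

namespace H34.G24

open H17 H35.Net H34.F4Code H35.TC
open H35.TCSuzA (Lt)

/-- the root elements in use -/
inductive RE

  | x0_1
  | x1_1
  | x4_2
  | x4_3
  | x5_1
  | x5_2
  | x6_1
  | x6_3
  | x7_1
  | x7_2
  | x8_1
  | x9_1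
  | x10_2
  | x10_3
  | x11_1
  | x11_2

/-- root number -/
def RE.r : RE → Fin 12
  | .x0_1 => 0
  | .x1_1 => 1
  | .x4_2 => 4
  | .x4_3 => 4
  | .x5_1 => 5
  | .x5_2 => 5
  | .x6_1 => 6
  | .x6_3 => 6
  | .x7_1 => 7
  | .x7_2 => 7
  | .x8_1 => 8
  | .x9_1 => 9
  | .x10_2 => 10
  | .x10_3 => 10
  | .x11_1 => 11
  | .x11_2 => 11

/-- parameter -/
def RE.t : RE → ℕ
  | .x0_1 => 1
  | .x1_1 => 1
  | .x4_2 => 2
  | .x4_3 => 3
  | .x5_1 => 1
  | .x5_2 => 2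
  | .x6_1 => 1
  | .x6_3 => 3
  | .x7_1 => 1
  | .x7_2 => 2
  | .x8_1 => 1
  | .x9_1 => 1
  | .x10_2 => 2
  | .x10_3 => 3
  | .x11_1 => 1
  | .x11_2 => 2

/-- table -/
noncomputable def RE.tb : RE → ℕ
  | .x0_1 => X_0_1
  | .x1_1 => X_1_1
  | .x4_2 => X_4_2
  | .x4_3 => X_4_3
  | .x5_1 => X_5_1
  | .x5_2 => X_5_2
  | .x6_1 => X_6_1
  | .x6_3 => X_6_3
  | .x7_1 => X_7_1
  | .x7_2 => X_7_2
  | .x8_1 => X_8_1
  | .x9_1 => X_9_1
  | .x10_2 => X_10_2
  | .x10_3 => X_10_3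
  | .x11_1 => X_11_1
  | .x11_2 => X_11_2

/-- matrix -/
def RE.mt (a : RE) : Matrix D.Idx D.Idx F4 := D.xMat F4 a.r (cf a.t)


theorem ok_0_1 : ∀ (i j : D.Idx) (c : Fin 4), cf (dgt (ent X_0_1 (pos j) c) (pos i)) = D.xMat F4 (0 : Fin 12) (cf 1) i j * cf c := by decide +kernel

theorem ok_1_1 : ∀ (i j : D.Idx) (c : Fin 4), cf (dgt (ent X_1_1 (pos j) c) (pos i)) = D.xMat F4 (1 : Fin 12) (cf 1) i j * cf c := by decide +kernel

theorem ok_4_2 : ∀ (i j : D.Idx) (c : Fin 4), cf (dgt (ent X_4_2 (pos j) c) (pos i)) = D.xMat F4 (4 : Fin 12) (cf 2) i j * cf c := by decide +kernel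

theorem ok_4_3 : ∀ (i j : D.Idx) (c : Fin 4), cf (dgt (ent X_4_3 (pos j) c) (pos i)) = D.xMat F4 (4 : Fin 12) (cf 3) i j * cf c := by decide +kernel

theorem ok_5_1 : ∀ (i j : D.Idx) (c : Fin 4), cf (dgt (ent X_5_1 (pos j) c) (pos i)) = D.xMat F4 (5 : Fin 12) (cf 1) i j * cf c := by decide +kernel

theorem ok_5_2 : ∀ (i j : D.Idx) (c : Fin 4), cf (dgt (ent X_5_2 (pos j) c) (pos i)) = D.xMat F4 (5 : Fin 12) (cf 2) i j * cf c := by decide +kernel

theorem ok_6_1 : ∀ (i j : D.Idx) (c : Fin 4), cf (dgt (ent X_6_1 (pos j) c) (pos i)) = D.xMat F4 (6 : Fin 12) (cf 1) i j * cf c := by decide +kernel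

theorem ok_6_3 : ∀ (i j : D.Idx) (c : Fin 4), cf (dgt (ent X_6_3 (pos j) c) (pos i)) = D.xMat F4 (6 : Fin 12) (cf 3) i j * cf c := by decide +kernel

theorem ok_7_1 : ∀ (i j : D.Idx) (c : Fin 4), cf (dgt (ent X_7_1 (pos j) c) (pos i)) = D.xMat F4 (7 : Fin 12) (cf 1) i j * cf c := by decide +kernel

theorem ok_7_2 : ∀ (i j : D.Idx) (c : Fin 4), cf (dgt (ent X_7_2 (pos j) c) (pos i)) = D.xMat F4 (7 : Fin 12) (cf 2) i j * cf c := by decide +kernel

theorem ok_8_1 : ∀ (i j : D.Idx) (c : Fin 4), cf (dgt (ent X_8_1 (pos j) c) (pos i)) = D.xMat F4 (8 : Fin 12) (cf 1) i j * cf c := by decide +kernel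

theorem ok_9_1 : ∀ (i j : D.Idx) (c : Fin 4), cf (dgt (ent X_9_1 (pos j) c) (pos i)) = D.xMat F4 (9 : Fin 12) (cf 1) i j * cf c := by decide +kernel

theorem ok_10_2 : ∀ (i j : D.Idx) (c : Fin 4), cf (dgt (ent X_10_2 (pos j) c) (pos i)) = D.xMat F4 (10 : Fin 12) (cf 2) i j * cf c := by decide +kernel

theorem ok_10_3 : ∀ (i j : D.Idx) (c : Fin 4), cf (dgt (ent X_10_3 (pos j) c) (pos i)) = D.xMat F4 (10 : Fin 12) (cf 3) i j * cf c := by decide +kernel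

theorem ok_11_1 : ∀ (i j : D.Idx) (c : Fin 4), cf (dgt (ent X_11_1 (pos j) c) (pos i)) = D.xMat F4 (11 : Fin 12) (cf 1) i j * cf c := by decide +kernel

theorem ok_11_2 : ∀ (i j : D.Idx) (c : Fin 4), cf (dgt (ent X_11_2 (pos j) c) (pos i)) = D.xMat F4 (11 : Fin 12) (cf 2) i j * cf c := by decide +kernel

theorem RE.ok (a : RE) : RepE a.tb a.mt := by
  intro j c hc
  funext i
  cases a
  · exact ok_0_1 i j ⟨c, hc⟩
  · exact ok_1_1 i j ⟨c, hc⟩
  · exact ok_4_2 i j ⟨c, hc⟩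
  · exact ok_4_3 i j ⟨c, hc⟩
  · exact ok_5_1 i j ⟨c, hc⟩
  · exact ok_5_2 i j ⟨c, hc⟩
  · exact ok_6_1 i j ⟨c, hc⟩
  · exact ok_6_3 i j ⟨c, hc⟩
  · exact ok_7_1 i j ⟨c, hc⟩
  · exact ok_7_2 i j ⟨c, hc⟩
  · exact ok_8_1 i j ⟨c, hc⟩
  · exact ok_9_1 i j ⟨c, hc⟩
  · exact ok_10_2 i j ⟨c, hc⟩
  · exact ok_10_3 i j ⟨c, hc⟩
  · exact ok_11_1 i j ⟨c, hc⟩
  · exact ok_11_2 i j ⟨c, hc⟩

/-- the letters of G2(4) -/
abbrev LB := H35.TCSuzB.Lt

/-- words in root elements -/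
def wd : LB → List RE
  | .a => [.x11_1]
  | .b => [.x7_2, .x5_2, .x1_1, .x0_1, .x11_1, .x0_1, .x1_1, .x5_2, .x7_2]
  | .c => [.x6_1, .x5_1, .x11_1, .x5_1, .x6_1]
  | .d => [.x4_2, .x4_3, .x7_1, .x10_2, .x11_2, .x4_3, .x4_2]
  | .e => [.x6_3, .x7_1, .x8_1, .x9_1, .x10_3, .x6_3]
  | .f => [.x11_2]

/-- tables -/
noncomputable def gt1 : LB → ℕ
  | .a => G_a_1
  | .b => G_b_1
  | .c => G_c_1
  | .d => G_d_1
  | .e => G_e_1
  | .f => G_f_1

/-- tables -/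
noncomputable def gt2 : LB → ℕ
  | .a => G_a_2
  | .b => G_b_2
  | .c => G_c_2
  | .d => G_d_2
  | .e => G_e_2
  | .f => G_f_2

/-- tables -/
noncomputable def gt3 : LB → ℕ
  | .a => G_a_3
  | .b => G_b_3
  | .c => G_c_3
  | .d => G_d_3
  | .e => G_e_3
  | .f => G_f_3

theorem w_a_1 : chkW G_a_1 1 ((wd .a).map RE.tb) = true := by decide +kernel
theorem w_a_2 : chkW G_a_2 2 ((wd .a).map RE.tb) = true := by decide +kernel
theorem w_a_3 : chkW G_a_3 3 ((wd .a).map RE.tb) = true := by decide +kernel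
theorem w_b_1 : chkW G_b_1 1 ((wd .b).map RE.tb) = true := by decide +kernel
theorem w_b_2 : chkW G_b_2 2 ((wd .b).map RE.tb) = true := by decide +kernel
theorem w_b_3 : chkW G_b_3 3 ((wd .b).map RE.tb) = true := by decide +kernel
theorem w_c_1 : chkW G_c_1 1 ((wd .c).map RE.tb) = true := by decide +kernel
theorem w_c_2 : chkW G_c_2 2 ((wd .c).map RE.tb) = true := by decide +kernel
theorem w_c_3 : chkW G_c_3 3 ((wd .c).map RE.tb) = true := by decide +kernel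
theorem w_d_1 : chkW G_d_1 1 ((wd .d).map RE.tb) = true := by decide +kernel
theorem w_d_2 : chkW G_d_2 2 ((wd .d).map RE.tb) = true := by decide +kernel
theorem w_d_3 : chkW G_d_3 3 ((wd .d).map RE.tb) = true := by decide +kernel
theorem w_e_1 : chkW G_e_1 1 ((wd .e).map RE.tb) = true := by decide +kernel
theorem w_e_2 : chkW G_e_2 2 ((wd .e).map RE.tb) = true := by decide +kernel
theorem w_e_3 : chkW G_e_3 3 ((wd .e).map RE.tb) = true := by decide +kernel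
theorem w_f_1 : chkW G_f_1 1 ((wd .f).map RE.tb) = true := by decide +kernel
theorem w_f_2 : chkW G_f_2 2 ((wd .f).map RE.tb) = true := by decide +kernel
theorem w_f_3 : chkW G_f_3 3 ((wd .f).map RE.tb) = true := by decide +kernel

theorem gt1_ok (x : LB) : RepE (gt1 x) (cf 1 • ((wd x).map RE.mt).prod) := by
  cases x
  · exact chkW_spec RE.tb RE.mt _ (fun a _ => RE.ok a) (by norm_num) w_a_1
  · exact chkW_spec RE.tb RE.mt _ (fun a _ => RE.ok a) (by norm_num) w_b_1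
  · exact chkW_spec RE.tb RE.mt _ (fun a _ => RE.ok a) (by norm_num) w_c_1
  · exact chkW_spec RE.tb RE.mt _ (fun a _ => RE.ok a) (by norm_num) w_d_1
  · exact chkW_spec RE.tb RE.mt _ (fun a _ => RE.ok a) (by norm_num) w_e_1
  · exact chkW_spec RE.tb RE.mt _ (fun a _ => RE.ok a) (by norm_num) w_f_1

theorem gt2_ok (x : LB) : RepE (gt2 x) (cf 2 • ((wd x).map RE.mt).prod) := by
  cases x
  · exact chkW_spec RE.tb RE.mt _ (fun a _ => RE.ok a) (by norm_num) w_a_2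
  · exact chkW_spec RE.tb RE.mt _ (fun a _ => RE.ok a) (by norm_num) w_b_2
  · exact chkW_spec RE.tb RE.mt _ (fun a _ => RE.ok a) (by norm_num) w_c_2
  · exact chkW_spec RE.tb RE.mt _ (fun a _ => RE.ok a) (by norm_num) w_d_2
  · exact chkW_spec RE.tb RE.mt _ (fun a _ => RE.ok a) (by norm_num) w_e_2
  · exact chkW_spec RE.tb RE.mt _ (fun a _ => RE.ok a) (by norm_num) w_f_2

theorem gt3_ok (x : LB) : RepE (gt3 x) (cf 3 • ((wd x).map RE.mt).prod) := by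
  cases x
  · exact chkW_spec RE.tb RE.mt _ (fun a _ => RE.ok a) (by norm_num) w_a_3
  · exact chkW_spec RE.tb RE.mt _ (fun a _ => RE.ok a) (by norm_num) w_b_3
  · exact chkW_spec RE.tb RE.mt _ (fun a _ => RE.ok a) (by norm_num) w_c_3
  · exact chkW_spec RE.tb RE.mt _ (fun a _ => RE.ok a) (by norm_num) w_d_3
  · exact chkW_spec RE.tb RE.mt _ (fun a _ => RE.ok a) (by norm_num) w_e_3
  · exact chkW_spec RE.tb RE.mt _ (fun a _ => RE.ok a) (by norm_num) w_f_3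

theorem c_a : chkX (H35.NSuz.net .a) G_a_1 G_a_2 G_a_3 = true := by decide +kernel
theorem c_b : chkX (H35.NSuz.net .b) G_b_1 G_b_2 G_b_3 = true := by decide +kernel
theorem c_c : chkX (H35.NSuz.net .c) G_c_1 G_c_2 G_c_3 = true := by decide +kernel
theorem c_d : chkX (H35.NSuz.net .d) G_d_1 G_d_2 G_d_3 = true := by decide +kernel
theorem c_e : chkX (H35.NSuz.net .e) G_e_1 G_e_2 G_e_3 = true := by decide +kernel
theorem c_f : chkX (H35.NSuz.net .f) G_f_1 G_f_2 G_f_3 = true := by decide +kernel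

theorem d_1 : chkD 1 = true := by decide +kernel
theorem z_1 : Nat.beq (vecN 1) 0 = false := by decide +kernel
theorem d_2 : chkD 2 = true := by decide +kernel
theorem z_2 : Nat.beq (vecN 2) 0 = false := by decide +kernel
theorem d_458 : chkD 458 = true := by decide +kernel
theorem z_458 : Nat.beq (vecN 458) 0 = false := by decide +kernel

/-- words of level 1 -/
def v_1 : List (List Lt) := [[.a], [.b], [.c], [.d], [.e], [.f]]
/-- words of level 2 -/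
def v_2 : List (List Lt) := [[.e], [.b, .a, .c, .d, .c, .d, .c, .d, .c, .b], [.b, .c, .d, .c, .f, .b, .a, .c, .d, .b, .c, .a, .b]]
/-- words of level 3 -/
def v_3 : List (List Lt) := [[.e], [.b, .a, .c, .d, .c, .d, .c, .d, .c, .b], [.b, .a, .c, .b, .d, .c, .a, .b, .f, .c, .d, .c, .a, .c, .b, .d, .c, .a, .b, .f, .c, .d, .c, .b, .e, .b, .c, .d, .c, .f, .b, .a, .c, .d, .b, .d, .c, .d, .f, .b, .a, .c, .d, .b, .c, .a, .b, .e, .b, .c, .d, .c, .f, .b, .a, .c, .d, .b, .c, .a, .b]]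
theorem vf_1 : chkFixF H35.NSuz.net v_1 [0] = true := by decide +kernel
theorem vf_2 : chkFixF H35.NSuz.net v_2 [1, 0] = true := by decide +kernel
theorem vf_3 : chkFixF H35.NSuz.net v_3 [2, 1, 0] = true := by decide +kernel
theorem vo_1 : chkOrb H35.NSuz.net 11 v_1 8 1 1365 = true := by decide +kernel
theorem vo_2 : chkOrb H35.NSuz.net 11 v_2 40 2 1024 = true := by decide +kernel
theorem vo_3 : chkOrb H35.NSuz.net 11 v_3 40 458 180 = true := by decide +kernel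

end H34.G24
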