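import Mathlib
import Cfsg.Prelude.Def_Spor_Ly
import Cfsg.Prelude.Def_ChevG2
import Cfsg.Agent.Lib.H34.TCLyA
import Cfsg.Agent.Lib.H34.TCLyB
import Cfsg.Agent.Lib.H34.TCLyC
import Cfsg.Agent.Lib.H34.IsoRow
import Cfsg.Agent.S1059
import Cfsg.Agent.S1055

/-! # The relations 1–44 of the presented Lyons group define G₂(5) -/

set_option autoImplicit false
set_option maxRecDepth 100000
set_option linter.all false

namespace H34.LyA

open Cfsg.Spor.Ly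

variable {Λ : Type*} [Group Λ]

/-- images of the letters -/
def gJ (f : Gen → Λ) : H34.TCLyA.Lt → Λ
  | .a => f .a
  | .ai => (f .a)⁻¹
  | .b => f .b
  | .bi => (f .b)⁻¹
  | .c => f .c
  | .ci => (f .c)⁻¹
  | .d => f .d
  | .di => (f .d)⁻¹
  | .e => f .e
  | .u => f .c2
  | .ui => (f .c2)⁻¹
  | .v => f .c4
  | .vi => (f .c4)⁻¹
  | .w => f .c5
  | .wi => (f .c5)⁻¹

/-- the relations 1–44 -/
def Rel (f : Gen → Λ) : Prop := ∀ r ∈ Cfsg.Spor.Ly.extra.take 44, FreeGroup.lift f r = 1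

theorem rel1 {f : Gen → Λ} (H : Rel f) : FreeGroup.lift f (a ^ 8) = 1 :=
  H _ (List.getElem_mem (l := Cfsg.Spor.Ly.extra.take 44) (n := 0) (by decide))

theorem rel2 {f : Gen → Λ} (H : Rel f) : FreeGroup.lift f (b ^ 5) = 1 :=
  H _ (List.getElem_mem (l := Cfsg.Spor.Ly.extra.take 44) (n := 1) (by decide))

theorem rel3 {f : Gen → Λ} (H : Rel f) : FreeGroup.lift f ((a * b) ^ 4) = 1 :=
  H _ (List.getElem_mem (l := Cfsg.Spor.Ly.extra.take 44) (n := 2) (by decide))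

theorem rel4 {f : Gen → Λ} (H : Rel f) : FreeGroup.lift f ((a ^ 2)⁻¹ * b⁻¹ * (a ^ 2) * b) = 1 :=
  H _ (List.getElem_mem (l := Cfsg.Spor.Ly.extra.take 44) (n := 3) (by decide))

theorem rel5 {f : Gen → Λ} (H : Rel f) : FreeGroup.lift f ((a⁻¹ * b⁻¹ * a * b) ^ 3) = 1 :=
  H _ (List.getElem_mem (l := Cfsg.Spor.Ly.extra.take 44) (n := 4) (by decide))

theorem rel6 {f : Gen → Λ} (H : Rel f) : FreeGroup.lift f (c1 * (c⁻¹)) = 1 :=
  H _ (List.getElem_mem (l := Cfsg.Spor.Ly.extra.take 44) (n := 5) (by decide))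

theorem rel7 {f : Gen → Λ} (H : Rel f) : FreeGroup.lift f (c2 * ((a⁻¹ * c * a)⁻¹)) = 1 :=
  H _ (List.getElem_mem (l := Cfsg.Spor.Ly.extra.take 44) (n := 6) (by decide))

theorem rel8 {f : Gen → Λ} (H : Rel f) : FreeGroup.lift f (c3 * ((b⁻¹ * c * b)⁻¹)) = 1 :=
  H _ (List.getElem_mem (l := Cfsg.Spor.Ly.extra.take 44) (n := 7) (by decide))

theorem rel9 {f : Gen → Λ} (H : Rel f) : FreeGroup.lift f (c4 * (((b⁻¹)⁻¹ * c * (b⁻¹))⁻¹)) = 1 :=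
  H _ (List.getElem_mem (l := Cfsg.Spor.Ly.extra.take 44) (n := 8) (by decide))

theorem rel10 {f : Gen → Λ} (H : Rel f) : FreeGroup.lift f (c5 * ((c1⁻¹ * c2⁻¹ * c1 * c2)⁻¹)) = 1 :=
  H _ (List.getElem_mem (l := Cfsg.Spor.Ly.extra.take 44) (n := 9) (by decide))

theorem rel11 {f : Gen → Λ} (H : Rel f) : FreeGroup.lift f (c1 ^ 5) = 1 :=
  H _ (List.getElem_mem (l := Cfsg.Spor.Ly.extra.take 44) (n := 10) (by decide))

theorem rel12 {f : Gen → Λ} (H : Rel f) : FreeGroup.lift f (c5 ^ 5) = 1 :=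
  H _ (List.getElem_mem (l := Cfsg.Spor.Ly.extra.take 44) (n := 11) (by decide))

theorem rel13 {f : Gen → Λ} (H : Rel f) : FreeGroup.lift f (c1⁻¹ * c5⁻¹ * c1 * c5) = 1 :=
  H _ (List.getElem_mem (l := Cfsg.Spor.Ly.extra.take 44) (n := 12) (by decide))

theorem rel14 {f : Gen → Λ} (H : Rel f) : FreeGroup.lift f (c2⁻¹ * c5⁻¹ * c2 * c5) = 1 :=
  H _ (List.getElem_mem (l := Cfsg.Spor.Ly.extra.take 44) (n := 13) (by decide))

theorem rel15 {f : Gen → Λ} (H : Rel f) : FreeGroup.lift f (c3⁻¹ * c5⁻¹ * c3 * c5) = 1 :=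
  H _ (List.getElem_mem (l := Cfsg.Spor.Ly.extra.take 44) (n := 14) (by decide))

theorem rel16 {f : Gen → Λ} (H : Rel f) : FreeGroup.lift f (c4⁻¹ * c5⁻¹ * c4 * c5) = 1 :=
  H _ (List.getElem_mem (l := Cfsg.Spor.Ly.extra.take 44) (n := 15) (by decide))

theorem rel17 {f : Gen → Λ} (H : Rel f) : FreeGroup.lift f ((c1⁻¹ * c3⁻¹ * c1 * c3) * (((c5 ^ 2)⁻¹)⁻¹)) = 1 :=
  H _ (List.getElem_mem (l := Cfsg.Spor.Ly.extra.take 44) (n := 16) (by decide))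

theorem rel18 {f : Gen → Λ} (H : Rel f) : FreeGroup.lift f ((c1⁻¹ * c4⁻¹ * c1 * c4) * ((c5 ^ 2)⁻¹)) = 1 :=
  H _ (List.getElem_mem (l := Cfsg.Spor.Ly.extra.take 44) (n := 17) (by decide))

theorem rel19 {f : Gen → Λ} (H : Rel f) : FreeGroup.lift f ((c2⁻¹ * c3⁻¹ * c2 * c3) * ((c5⁻¹)⁻¹)) = 1 :=
  H _ (List.getElem_mem (l := Cfsg.Spor.Ly.extra.take 44) (n := 18) (by decide))

theorem rel20 {f : Gen → Λ} (H : Rel f) : FreeGroup.lift f (c2⁻¹ * c4⁻¹ * c2 * c4) = 1 :=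
  H _ (List.getElem_mem (l := Cfsg.Spor.Ly.extra.take 44) (n := 19) (by decide))

theorem rel21 {f : Gen → Λ} (H : Rel f) : FreeGroup.lift f ((c3⁻¹ * c4⁻¹ * c3 * c4) * ((c5⁻¹)⁻¹)) = 1 :=
  H _ (List.getElem_mem (l := Cfsg.Spor.Ly.extra.take 44) (n := 20) (by decide))

theorem rel22 {f : Gen → Λ} (H : Rel f) : FreeGroup.lift f ((a⁻¹ * c2 * a) * (((c1 ^ 2)⁻¹)⁻¹)) = 1 :=
  H _ (List.getElem_mem (l := Cfsg.Spor.Ly.extra.take 44) (n := 21) (by decide))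

theorem rel23 {f : Gen → Λ} (H : Rel f) : FreeGroup.lift f ((a⁻¹ * c3 * a) * ((((c3 ^ 2)⁻¹) * c1 * c4)⁻¹)) = 1 :=
  H _ (List.getElem_mem (l := Cfsg.Spor.Ly.extra.take 44) (n := 22) (by decide))

theorem rel24 {f : Gen → Λ} (H : Rel f) : FreeGroup.lift f ((a⁻¹ * c4 * a) * ((c1 * (c2⁻¹) * (c3⁻¹) * c4 * c1 * c4)⁻¹)) = 1 :=
  H _ (List.getElem_mem (l := Cfsg.Spor.Ly.extra.take 44) (n := 23) (by decide))

theorem rel25 {f : Gen → Λ} (H : Rel f) : FreeGroup.lift f ((a⁻¹ * c5 * a) * ((c5 ^ 2)⁻¹)) = 1 :=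
  H _ (List.getElem_mem (l := Cfsg.Spor.Ly.extra.take 44) (n := 24) (by decide))

theorem rel26 {f : Gen → Λ} (H : Rel f) : FreeGroup.lift f ((b⁻¹ * c2 * b) * ((c2 * c3 * (c4⁻¹) * (c1⁻¹) * (c4⁻¹))⁻¹)) = 1 :=
  H _ (List.getElem_mem (l := Cfsg.Spor.Ly.extra.take 44) (n := 25) (by decide))

theorem rel27 {f : Gen → Λ} (H : Rel f) : FreeGroup.lift f ((b⁻¹ * c3 * b) * (((c1 ^ 2) * c4 * ((c3 ^ 2)⁻¹))⁻¹)) = 1 :=
  H _ (List.getElem_mem (l := Cfsg.Spor.Ly.extra.take 44) (n := 26) (by decide))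

theorem rel28 {f : Gen → Λ} (H : Rel f) : FreeGroup.lift f ((b⁻¹ * c5 * b) * (c5⁻¹)) = 1 :=
  H _ (List.getElem_mem (l := Cfsg.Spor.Ly.extra.take 44) (n := 27) (by decide))

theorem rel29 {f : Gen → Λ} (H : Rel f) : FreeGroup.lift f (e * ((((b ^ 2)⁻¹) * (a⁻¹ * c1⁻¹ * a * c1) * (a⁻¹) * c1 * a * d * c1 * b * a * (b⁻¹) * d * c1 * d)⁻¹)) = 1 :=
  H _ (List.getElem_mem (l := Cfsg.Spor.Ly.extra.take 44) (n := 28) (by decide))

theorem rel30 {f : Gen → Λ} (H : Rel f) : FreeGroup.lift f (e ^ 2) = 1 :=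
  H _ (List.getElem_mem (l := Cfsg.Spor.Ly.extra.take 44) (n := 29) (by decide))

theorem rel31 {f : Gen → Λ} (H : Rel f) : FreeGroup.lift f ((e⁻¹ * c1 * e) * ((b * c3 * b * (c1⁻¹))⁻¹)) = 1 :=
  H _ (List.getElem_mem (l := Cfsg.Spor.Ly.extra.take 44) (n := 30) (by decide))

theorem rel32 {f : Gen → Λ} (H : Rel f) : FreeGroup.lift f ((e⁻¹ * c3 * e) * (((b ^ 2) * a * c2 * (c1⁻¹) * (c4⁻¹) * (a⁻¹))⁻¹)) = 1 :=
  H _ (List.getElem_mem (l := Cfsg.Spor.Ly.extra.take 44) (n := 31) (by decide))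

theorem rel33 {f : Gen → Λ} (H : Rel f) : FreeGroup.lift f ((e⁻¹ * c4 * e) * (((b ^ 2) * (c3⁻¹) * c4)⁻¹)) = 1 :=
  H _ (List.getElem_mem (l := Cfsg.Spor.Ly.extra.take 44) (n := 32) (by decide))

theorem rel34 {f : Gen → Λ} (H : Rel f) : FreeGroup.lift f ((e⁻¹ * c5 * e) * ((c1 * (c3⁻¹) * c1 * (c4⁻¹))⁻¹)) = 1 :=
  H _ (List.getElem_mem (l := Cfsg.Spor.Ly.extra.take 44) (n := 33) (by decide))

theorem rel35 {f : Gen → Λ} (H : Rel f) : FreeGroup.lift f ((e * (a ^ 2) * e) * ((a * (b ^ 2) * a * (b⁻¹) * a * c1 * c5 * (c4⁻¹))⁻¹)) = 1 :=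
  H _ (List.getElem_mem (l := Cfsg.Spor.Ly.extra.take 44) (n := 34) (by decide))

theorem rel36 {f : Gen → Λ} (H : Rel f) : FreeGroup.lift f ((e⁻¹ * b * e) * ((c1 * (c3⁻¹) * ((c4 ^ 2)⁻¹))⁻¹)) = 1 :=
  H _ (List.getElem_mem (l := Cfsg.Spor.Ly.extra.take 44) (n := 35) (by decide))

theorem rel37 {f : Gen → Λ} (H : Rel f) : FreeGroup.lift f ((e * a * (b ^ 2) * a * (b⁻¹) * a * e) * (((a ^ 2) * c1 * c5 * (c4⁻¹))⁻¹)) = 1 :=
  H _ (List.getElem_mem (l := Cfsg.Spor.Ly.extra.take 44) (n := 36) (by decide))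

theorem rel38 {f : Gen → Λ} (H : Rel f) : FreeGroup.lift f (e * c2 * e * (c2⁻¹) * e * c2 * (c4⁻¹) * a * c3 * (a ^ 3)) = 1 :=
  H _ (List.getElem_mem (l := Cfsg.Spor.Ly.extra.take 44) (n := 37) (by decide))

theorem rel39 {f : Gen → Λ} (H : Rel f) : FreeGroup.lift f (d * ((a * (b ^ 2) * (a⁻¹) * (b⁻¹) * (c1⁻¹) * (c4⁻¹) * (c5⁻¹) * a * e * a * e * a * (c2⁻¹) * b * e)⁻¹)) = 1 :=
  H _ (List.getElem_mem (l := Cfsg.Spor.Ly.extra.take 44) (n := 38) (by decide))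

theorem rel40 {f : Gen → Λ} (H : Rel f) : FreeGroup.lift f ((d ^ 2) * ((a ^ 4)⁻¹)) = 1 :=
  H _ (List.getElem_mem (l := Cfsg.Spor.Ly.extra.take 44) (n := 39) (by decide))

theorem rel41 {f : Gen → Λ} (H : Rel f) : FreeGroup.lift f (b⁻¹ * d⁻¹ * b * d) = 1 :=
  H _ (List.getElem_mem (l := Cfsg.Spor.Ly.extra.take 44) (n := 40) (by decide))

theorem rel42 {f : Gen → Λ} (H : Rel f) : FreeGroup.lift f ((d⁻¹ * a * d) * ((a ^ 3)⁻¹)) = 1 :=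
  H _ (List.getElem_mem (l := Cfsg.Spor.Ly.extra.take 44) (n := 41) (by decide))

theorem rel43 {f : Gen → Λ} (H : Rel f) : FreeGroup.lift f ((d * c5) ^ 5) = 1 :=
  H _ (List.getElem_mem (l := Cfsg.Spor.Ly.extra.take 44) (n := 42) (by decide))

theorem rel44 {f : Gen → Λ} (H : Rel f) : FreeGroup.lift f (d * c5 * d * (c5⁻¹) * d * c5 * ((a ^ 2)⁻¹)) = 1 :=
  H _ (List.getElem_mem (l := Cfsg.Spor.Ly.extra.take 44) (n := 43) (by decide))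


theorem hc1 {f : Gen → Λ} (H : Rel f) : f .c1 = f .c := by
  have h := rel6 H
  simp only [c1, c, map_mul, map_inv, FreeGroup.lift_apply_of] at h
  exact mul_inv_eq_one.1 h

theorem hc3 {f : Gen → Λ} (H : Rel f) : f .c3 = (f .b)⁻¹ * (f .c * f .b) := by
  have h := rel8 H
  simp only [c3, b, c, map_mul, map_inv, FreeGroup.lift_apply_of] at h
  rw [← mul_assoc]
  exact mul_inv_eq_one.1 h

theorem he {f : Gen → Λ} (H : Rel f) : (f .e)⁻¹ = f .e := by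
  have h := rel30 H
  simp only [e, pow_two, map_mul, FreeGroup.lift_apply_of] at h
  exact inv_eq_of_mul_eq_one_left h

open H34.TCLyA in
theorem ext_ok {f : Gen → Λ} (H : Rel f) : ∀ p ∈ H34.TCLyA.extra, ((p.1.map (gJ f)).prod) ^ p.2 = 1 := by
  have e1 := hc1 H
  have e3 := hc3 H
  have e2 := he H
  intro p hp
  simp only [H34.TCLyA.extra, List.mem_cons, List.not_mem_nil, or_false] at hp
  rcases hp with rfl | rfl | rfl | rfl | rfl | rfl | rfl | rfl | rfl | rfl | rfl | rfl | rfl | rfl | rfl | rfl | rfl | rfl | rfl | rfl | rfl | rfl | rfl | rfl | rfl | rfl | rfl | rfl | rfl | rfl | rfl | rfl | rfl | rfl | rfl | rfl | rfl | rfl | rfl | rfl | rfl | rfl | rfl | rfl | rfl | rfl | rfl | rfl | rfl | rfl | rfl | rfl | rfl | rfl | rfl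

  · have h := rel28 H
    simp only [Cfsg.Spor.Ly.a, Cfsg.Spor.Ly.b, Cfsg.Spor.Ly.c, Cfsg.Spor.Ly.d, Cfsg.Spor.Ly.e, Cfsg.Spor.Ly.c1, Cfsg.Spor.Ly.c2, Cfsg.Spor.Ly.c3, Cfsg.Spor.Ly.c4, Cfsg.Spor.Ly.c5, List.map_cons, List.map_nil, List.prod_cons, List.prod_nil, gJ, map_mul, map_inv, map_pow, FreeGroup.lift_apply_of, e1, e3, e2, mul_assoc, mul_inv_rev, inv_inv, mul_one, one_mul, mul_inv_cancel_left, inv_mul_cancel_left, mul_inv_cancel, inv_mul_cancel, pow_succ, pow_zero, inv_one] at h ⊢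
    exact h
  · have h := rel20 H
    simp only [Cfsg.Spor.Ly.a, Cfsg.Spor.Ly.b, Cfsg.Spor.Ly.c, Cfsg.Spor.Ly.d, Cfsg.Spor.Ly.e, Cfsg.Spor.Ly.c1, Cfsg.Spor.Ly.c2, Cfsg.Spor.Ly.c3, Cfsg.Spor.Ly.c4, Cfsg.Spor.Ly.c5, List.map_cons, List.map_nil, List.prod_cons, List.prod_nil, gJ, map_mul, map_inv, map_pow, FreeGroup.lift_apply_of, e1, e3, e2, mul_assoc, mul_inv_rev, inv_inv, mul_one, one_mul, mul_inv_cancel_left, inv_mul_cancel_left, mul_inv_cancel, inv_mul_cancel, pow_succ, pow_zero, inv_one] at h ⊢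
    exact h
  · have h := rel16 H
    simp only [Cfsg.Spor.Ly.a, Cfsg.Spor.Ly.b, Cfsg.Spor.Ly.c, Cfsg.Spor.Ly.d, Cfsg.Spor.Ly.e, Cfsg.Spor.Ly.c1, Cfsg.Spor.Ly.c2, Cfsg.Spor.Ly.c3, Cfsg.Spor.Ly.c4, Cfsg.Spor.Ly.c5, List.map_cons, List.map_nil, List.prod_cons, List.prod_nil, gJ, map_mul, map_inv, map_pow, FreeGroup.lift_apply_of, e1, e3, e2, mul_assoc, mul_inv_rev, inv_inv, mul_one, one_mul, mul_inv_cancel_left, inv_mul_cancel_left, mul_inv_cancel, inv_mul_cancel, pow_succ, pow_zero, inv_one] at h ⊢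
    exact h
  · have h := rel7 H
    simp only [Cfsg.Spor.Ly.a, Cfsg.Spor.Ly.b, Cfsg.Spor.Ly.c, Cfsg.Spor.Ly.d, Cfsg.Spor.Ly.e, Cfsg.Spor.Ly.c1, Cfsg.Spor.Ly.c2, Cfsg.Spor.Ly.c3, Cfsg.Spor.Ly.c4, Cfsg.Spor.Ly.c5, List.map_cons, List.map_nil, List.prod_cons, List.prod_nil, gJ, map_mul, map_inv, map_pow, FreeGroup.lift_apply_of, e1, e3, e2, mul_assoc, mul_inv_rev, inv_inv, mul_one, one_mul, mul_inv_cancel_left, inv_mul_cancel_left, mul_inv_cancel, inv_mul_cancel, pow_succ, pow_zero, inv_one] at h ⊢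
    exact h
  · have h := rel9 H
    simp only [Cfsg.Spor.Ly.a, Cfsg.Spor.Ly.b, Cfsg.Spor.Ly.c, Cfsg.Spor.Ly.d, Cfsg.Spor.Ly.e, Cfsg.Spor.Ly.c1, Cfsg.Spor.Ly.c2, Cfsg.Spor.Ly.c3, Cfsg.Spor.Ly.c4, Cfsg.Spor.Ly.c5, List.map_cons, List.map_nil, List.prod_cons, List.prod_nil, gJ, map_mul, map_inv, map_pow, FreeGroup.lift_apply_of, e1, e3, e2, mul_assoc, mul_inv_rev, inv_inv, mul_one, one_mul, mul_inv_cancel_left, inv_mul_cancel_left, mul_inv_cancel, inv_mul_cancel, pow_succ, pow_zero, inv_one] at h ⊢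
    exact h
  · have h := rel41 H
    simp only [Cfsg.Spor.Ly.a, Cfsg.Spor.Ly.b, Cfsg.Spor.Ly.c, Cfsg.Spor.Ly.d, Cfsg.Spor.Ly.e, Cfsg.Spor.Ly.c1, Cfsg.Spor.Ly.c2, Cfsg.Spor.Ly.c3, Cfsg.Spor.Ly.c4, Cfsg.Spor.Ly.c5, List.map_cons, List.map_nil, List.prod_cons, List.prod_nil, gJ, map_mul, map_inv, map_pow, FreeGroup.lift_apply_of, e1, e3, e2, mul_assoc, mul_inv_rev, inv_inv, mul_one, one_mul, mul_inv_cancel_left, inv_mul_cancel_left, mul_inv_cancel, inv_mul_cancel, pow_succ, pow_zero, inv_one] at h ⊢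
    exact h
  · have h := rel14 H
    simp only [Cfsg.Spor.Ly.a, Cfsg.Spor.Ly.b, Cfsg.Spor.Ly.c, Cfsg.Spor.Ly.d, Cfsg.Spor.Ly.e, Cfsg.Spor.Ly.c1, Cfsg.Spor.Ly.c2, Cfsg.Spor.Ly.c3, Cfsg.Spor.Ly.c4, Cfsg.Spor.Ly.c5, List.map_cons, List.map_nil, List.prod_cons, List.prod_nil, gJ, map_mul, map_inv, map_pow, FreeGroup.lift_apply_of, e1, e3, e2, mul_assoc, mul_inv_rev, inv_inv, mul_one, one_mul, mul_inv_cancel_left, inv_mul_cancel_left, mul_inv_cancel, inv_mul_cancel, pow_succ, pow_zero, inv_one] at h ⊢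
    exact h
  · have h := rel13 H
    simp only [Cfsg.Spor.Ly.a, Cfsg.Spor.Ly.b, Cfsg.Spor.Ly.c, Cfsg.Spor.Ly.d, Cfsg.Spor.Ly.e, Cfsg.Spor.Ly.c1, Cfsg.Spor.Ly.c2, Cfsg.Spor.Ly.c3, Cfsg.Spor.Ly.c4, Cfsg.Spor.Ly.c5, List.map_cons, List.map_nil, List.prod_cons, List.prod_nil, gJ, map_mul, map_inv, map_pow, FreeGroup.lift_apply_of, e1, e3, e2, mul_assoc, mul_inv_rev, inv_inv, mul_one, one_mul, mul_inv_cancel_left, inv_mul_cancel_left, mul_inv_cancel, inv_mul_cancel, pow_succ, pow_zero, inv_one] at h ⊢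
    exact h
  · have h := rel25 H
    simp only [Cfsg.Spor.Ly.a, Cfsg.Spor.Ly.b, Cfsg.Spor.Ly.c, Cfsg.Spor.Ly.d, Cfsg.Spor.Ly.e, Cfsg.Spor.Ly.c1, Cfsg.Spor.Ly.c2, Cfsg.Spor.Ly.c3, Cfsg.Spor.Ly.c4, Cfsg.Spor.Ly.c5, List.map_cons, List.map_nil, List.prod_cons, List.prod_nil, gJ, map_mul, map_inv, map_pow, FreeGroup.lift_apply_of, e1, e3, e2, mul_assoc, mul_inv_rev, inv_inv, mul_one, one_mul, mul_inv_cancel_left, inv_mul_cancel_left, mul_inv_cancel, inv_mul_cancel, pow_succ, pow_zero, inv_one] at h ⊢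
    exact h
  · have h := rel22 H
    simp only [Cfsg.Spor.Ly.a, Cfsg.Spor.Ly.b, Cfsg.Spor.Ly.c, Cfsg.Spor.Ly.d, Cfsg.Spor.Ly.e, Cfsg.Spor.Ly.c1, Cfsg.Spor.Ly.c2, Cfsg.Spor.Ly.c3, Cfsg.Spor.Ly.c4, Cfsg.Spor.Ly.c5, List.map_cons, List.map_nil, List.prod_cons, List.prod_nil, gJ, map_mul, map_inv, map_pow, FreeGroup.lift_apply_of, e1, e3, e2, mul_assoc, mul_inv_rev, inv_inv, mul_one, one_mul, mul_inv_cancel_left, inv_mul_cancel_left, mul_inv_cancel, inv_mul_cancel, pow_succ, pow_zero, inv_one] at h ⊢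
    exact h
  · have h := rel12 H
    simp only [Cfsg.Spor.Ly.a, Cfsg.Spor.Ly.b, Cfsg.Spor.Ly.c, Cfsg.Spor.Ly.d, Cfsg.Spor.Ly.e, Cfsg.Spor.Ly.c1, Cfsg.Spor.Ly.c2, Cfsg.Spor.Ly.c3, Cfsg.Spor.Ly.c4, Cfsg.Spor.Ly.c5, List.map_cons, List.map_nil, List.prod_cons, List.prod_nil, gJ, map_mul, map_inv, map_pow, FreeGroup.lift_apply_of, e1, e3, e2, mul_assoc, mul_inv_rev, inv_inv, mul_one, one_mul, mul_inv_cancel_left, inv_mul_cancel_left, mul_inv_cancel, inv_mul_cancel, pow_succ, pow_zero, inv_one] at h ⊢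
    exact h
  · have h := rel11 H
    simp only [Cfsg.Spor.Ly.a, Cfsg.Spor.Ly.b, Cfsg.Spor.Ly.c, Cfsg.Spor.Ly.d, Cfsg.Spor.Ly.e, Cfsg.Spor.Ly.c1, Cfsg.Spor.Ly.c2, Cfsg.Spor.Ly.c3, Cfsg.Spor.Ly.c4, Cfsg.Spor.Ly.c5, List.map_cons, List.map_nil, List.prod_cons, List.prod_nil, gJ, map_mul, map_inv, map_pow, FreeGroup.lift_apply_of, e1, e3, e2, mul_assoc, mul_inv_rev, inv_inv, mul_one, one_mul, mul_inv_cancel_left, inv_mul_cancel_left, mul_inv_cancel, inv_mul_cancel, pow_succ, pow_zero, inv_one] at h ⊢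
    exact h
  · have h := rel10 H
    simp only [Cfsg.Spor.Ly.a, Cfsg.Spor.Ly.b, Cfsg.Spor.Ly.c, Cfsg.Spor.Ly.d, Cfsg.Spor.Ly.e, Cfsg.Spor.Ly.c1, Cfsg.Spor.Ly.c2, Cfsg.Spor.Ly.c3, Cfsg.Spor.Ly.c4, Cfsg.Spor.Ly.c5, List.map_cons, List.map_nil, List.prod_cons, List.prod_nil, gJ, map_mul, map_inv, map_pow, FreeGroup.lift_apply_of, e1, e3, e2, mul_assoc, mul_inv_rev, inv_inv, mul_one, one_mul, mul_inv_cancel_left, inv_mul_cancel_left, mul_inv_cancel, inv_mul_cancel, pow_succ, pow_zero, inv_one] at h ⊢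
    exact h
  · have h := rel2 H
    simp only [Cfsg.Spor.Ly.a, Cfsg.Spor.Ly.b, Cfsg.Spor.Ly.c, Cfsg.Spor.Ly.d, Cfsg.Spor.Ly.e, Cfsg.Spor.Ly.c1, Cfsg.Spor.Ly.c2, Cfsg.Spor.Ly.c3, Cfsg.Spor.Ly.c4, Cfsg.Spor.Ly.c5, List.map_cons, List.map_nil, List.prod_cons, List.prod_nil, gJ, map_mul, map_inv, map_pow, FreeGroup.lift_apply_of, e1, e3, e2, mul_assoc, mul_inv_rev, inv_inv, mul_one, one_mul, mul_inv_cancel_left, inv_mul_cancel_left, mul_inv_cancel, inv_mul_cancel, pow_succ, pow_zero, inv_one] at h ⊢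
    exact h
  · have h := rel42 H
    simp only [Cfsg.Spor.Ly.a, Cfsg.Spor.Ly.b, Cfsg.Spor.Ly.c, Cfsg.Spor.Ly.d, Cfsg.Spor.Ly.e, Cfsg.Spor.Ly.c1, Cfsg.Spor.Ly.c2, Cfsg.Spor.Ly.c3, Cfsg.Spor.Ly.c4, Cfsg.Spor.Ly.c5, List.map_cons, List.map_nil, List.prod_cons, List.prod_nil, gJ, map_mul, map_inv, map_pow, FreeGroup.lift_apply_of, e1, e3, e2, mul_assoc, mul_inv_rev, inv_inv, mul_one, one_mul, mul_inv_cancel_left, inv_mul_cancel_left, mul_inv_cancel, inv_mul_cancel, pow_succ, pow_zero, inv_one] at h ⊢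
    exact h
  · have h := rel40 H
    simp only [Cfsg.Spor.Ly.a, Cfsg.Spor.Ly.b, Cfsg.Spor.Ly.c, Cfsg.Spor.Ly.d, Cfsg.Spor.Ly.e, Cfsg.Spor.Ly.c1, Cfsg.Spor.Ly.c2, Cfsg.Spor.Ly.c3, Cfsg.Spor.Ly.c4, Cfsg.Spor.Ly.c5, List.map_cons, List.map_nil, List.prod_cons, List.prod_nil, gJ, map_mul, map_inv, map_pow, FreeGroup.lift_apply_of, e1, e3, e2, mul_assoc, mul_inv_rev, inv_inv, mul_one, one_mul, mul_inv_cancel_left, inv_mul_cancel_left, mul_inv_cancel, inv_mul_cancel, pow_succ, pow_zero, inv_one] at h ⊢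
    exact h
  · have h := rel18 H
    simp only [Cfsg.Spor.Ly.a, Cfsg.Spor.Ly.b, Cfsg.Spor.Ly.c, Cfsg.Spor.Ly.d, Cfsg.Spor.Ly.e, Cfsg.Spor.Ly.c1, Cfsg.Spor.Ly.c2, Cfsg.Spor.Ly.c3, Cfsg.Spor.Ly.c4, Cfsg.Spor.Ly.c5, List.map_cons, List.map_nil, List.prod_cons, List.prod_nil, gJ, map_mul, map_inv, map_pow, FreeGroup.lift_apply_of, e1, e3, e2, mul_assoc, mul_inv_rev, inv_inv, mul_one, one_mul, mul_inv_cancel_left, inv_mul_cancel_left, mul_inv_cancel, inv_mul_cancel, pow_succ, pow_zero, inv_one] at h ⊢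
    exact h
  · have h := rel4 H
    simp only [Cfsg.Spor.Ly.a, Cfsg.Spor.Ly.b, Cfsg.Spor.Ly.c, Cfsg.Spor.Ly.d, Cfsg.Spor.Ly.e, Cfsg.Spor.Ly.c1, Cfsg.Spor.Ly.c2, Cfsg.Spor.Ly.c3, Cfsg.Spor.Ly.c4, Cfsg.Spor.Ly.c5, List.map_cons, List.map_nil, List.prod_cons, List.prod_nil, gJ, map_mul, map_inv, map_pow, FreeGroup.lift_apply_of, e1, e3, e2, mul_assoc, mul_inv_rev, inv_inv, mul_one, one_mul, mul_inv_cancel_left, inv_mul_cancel_left, mul_inv_cancel, inv_mul_cancel, pow_succ, pow_zero, inv_one] at h ⊢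
    exact h
  · have h := rel33 H
    simp only [Cfsg.Spor.Ly.a, Cfsg.Spor.Ly.b, Cfsg.Spor.Ly.c, Cfsg.Spor.Ly.d, Cfsg.Spor.Ly.e, Cfsg.Spor.Ly.c1, Cfsg.Spor.Ly.c2, Cfsg.Spor.Ly.c3, Cfsg.Spor.Ly.c4, Cfsg.Spor.Ly.c5, List.map_cons, List.map_nil, List.prod_cons, List.prod_nil, gJ, map_mul, map_inv, map_pow, FreeGroup.lift_apply_of, e1, e3, e2, mul_assoc, mul_inv_rev, inv_inv, mul_one, one_mul, mul_inv_cancel_left, inv_mul_cancel_left, mul_inv_cancel, inv_mul_cancel, pow_succ, pow_zero, inv_one] at h ⊢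
    exact h
  · have h := rel31 H
    simp only [Cfsg.Spor.Ly.a, Cfsg.Spor.Ly.b, Cfsg.Spor.Ly.c, Cfsg.Spor.Ly.d, Cfsg.Spor.Ly.e, Cfsg.Spor.Ly.c1, Cfsg.Spor.Ly.c2, Cfsg.Spor.Ly.c3, Cfsg.Spor.Ly.c4, Cfsg.Spor.Ly.c5, List.map_cons, List.map_nil, List.prod_cons, List.prod_nil, gJ, map_mul, map_inv, map_pow, FreeGroup.lift_apply_of, e1, e3, e2, mul_assoc, mul_inv_rev, inv_inv, mul_one, one_mul, mul_inv_cancel_left, inv_mul_cancel_left, mul_inv_cancel, inv_mul_cancel, pow_succ, pow_zero, inv_one] at h ⊢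
    exact h
  · have h := rel1 H
    simp only [Cfsg.Spor.Ly.a, Cfsg.Spor.Ly.b, Cfsg.Spor.Ly.c, Cfsg.Spor.Ly.d, Cfsg.Spor.Ly.e, Cfsg.Spor.Ly.c1, Cfsg.Spor.Ly.c2, Cfsg.Spor.Ly.c3, Cfsg.Spor.Ly.c4, Cfsg.Spor.Ly.c5, List.map_cons, List.map_nil, List.prod_cons, List.prod_nil, gJ, map_mul, map_inv, map_pow, FreeGroup.lift_apply_of, e1, e3, e2, mul_assoc, mul_inv_rev, inv_inv, mul_one, one_mul, mul_inv_cancel_left, inv_mul_cancel_left, mul_inv_cancel, inv_mul_cancel, pow_succ, pow_zero, inv_one] at h ⊢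
    exact h
  · have h := rel44 H
    simp only [Cfsg.Spor.Ly.a, Cfsg.Spor.Ly.b, Cfsg.Spor.Ly.c, Cfsg.Spor.Ly.d, Cfsg.Spor.Ly.e, Cfsg.Spor.Ly.c1, Cfsg.Spor.Ly.c2, Cfsg.Spor.Ly.c3, Cfsg.Spor.Ly.c4, Cfsg.Spor.Ly.c5, List.map_cons, List.map_nil, List.prod_cons, List.prod_nil, gJ, map_mul, map_inv, map_pow, FreeGroup.lift_apply_of, e1, e3, e2, mul_assoc, mul_inv_rev, inv_inv, mul_one, one_mul, mul_inv_cancel_left, inv_mul_cancel_left, mul_inv_cancel, inv_mul_cancel, pow_succ, pow_zero, inv_one] at h ⊢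
    exact h
  · have h := rel3 H
    simp only [Cfsg.Spor.Ly.a, Cfsg.Spor.Ly.b, Cfsg.Spor.Ly.c, Cfsg.Spor.Ly.d, Cfsg.Spor.Ly.e, Cfsg.Spor.Ly.c1, Cfsg.Spor.Ly.c2, Cfsg.Spor.Ly.c3, Cfsg.Spor.Ly.c4, Cfsg.Spor.Ly.c5, List.map_cons, List.map_nil, List.prod_cons, List.prod_nil, gJ, map_mul, map_inv, map_pow, FreeGroup.lift_apply_of, e1, e3, e2, mul_assoc, mul_inv_rev, inv_inv, mul_one, one_mul, mul_inv_cancel_left, inv_mul_cancel_left, mul_inv_cancel, inv_mul_cancel, pow_succ, pow_zero, inv_one] at h ⊢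
    exact h
  · have h := rel15 H
    simp only [Cfsg.Spor.Ly.a, Cfsg.Spor.Ly.b, Cfsg.Spor.Ly.c, Cfsg.Spor.Ly.d, Cfsg.Spor.Ly.e, Cfsg.Spor.Ly.c1, Cfsg.Spor.Ly.c2, Cfsg.Spor.Ly.c3, Cfsg.Spor.Ly.c4, Cfsg.Spor.Ly.c5, List.map_cons, List.map_nil, List.prod_cons, List.prod_nil, gJ, map_mul, map_inv, map_pow, FreeGroup.lift_apply_of, e1, e3, e2, mul_assoc, mul_inv_rev, inv_inv, mul_one, one_mul, mul_inv_cancel_left, inv_mul_cancel_left, mul_inv_cancel, inv_mul_cancel, pow_succ, pow_zero, inv_one] at h ⊢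
    exact h
  · have h := rel21 H
    simp only [Cfsg.Spor.Ly.a, Cfsg.Spor.Ly.b, Cfsg.Spor.Ly.c, Cfsg.Spor.Ly.d, Cfsg.Spor.Ly.e, Cfsg.Spor.Ly.c1, Cfsg.Spor.Ly.c2, Cfsg.Spor.Ly.c3, Cfsg.Spor.Ly.c4, Cfsg.Spor.Ly.c5, List.map_cons, List.map_nil, List.prod_cons, List.prod_nil, gJ, map_mul, map_inv, map_pow, FreeGroup.lift_apply_of, e1, e3, e2, mul_assoc, mul_inv_rev, inv_inv, mul_one, one_mul, mul_inv_cancel_left, inv_mul_cancel_left, mul_inv_cancel, inv_mul_cancel, pow_succ, pow_zero, inv_one] at h ⊢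
    exact h
  · have h := rel36 H
    simp only [Cfsg.Spor.Ly.a, Cfsg.Spor.Ly.b, Cfsg.Spor.Ly.c, Cfsg.Spor.Ly.d, Cfsg.Spor.Ly.e, Cfsg.Spor.Ly.c1, Cfsg.Spor.Ly.c2, Cfsg.Spor.Ly.c3, Cfsg.Spor.Ly.c4, Cfsg.Spor.Ly.c5, List.map_cons, List.map_nil, List.prod_cons, List.prod_nil, gJ, map_mul, map_inv, map_pow, FreeGroup.lift_apply_of, e1, e3, e2, mul_assoc, mul_inv_rev, inv_inv, mul_one, one_mul, mul_inv_cancel_left, inv_mul_cancel_left, mul_inv_cancel, inv_mul_cancel, pow_succ, pow_zero, inv_one] at h ⊢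
    exact h
  · have h := rel19 H
    simp only [Cfsg.Spor.Ly.a, Cfsg.Spor.Ly.b, Cfsg.Spor.Ly.c, Cfsg.Spor.Ly.d, Cfsg.Spor.Ly.e, Cfsg.Spor.Ly.c1, Cfsg.Spor.Ly.c2, Cfsg.Spor.Ly.c3, Cfsg.Spor.Ly.c4, Cfsg.Spor.Ly.c5, List.map_cons, List.map_nil, List.prod_cons, List.prod_nil, gJ, map_mul, map_inv, map_pow, FreeGroup.lift_apply_of, e1, e3, e2, mul_assoc, mul_inv_rev, inv_inv, mul_one, one_mul, mul_inv_cancel_left, inv_mul_cancel_left, mul_inv_cancel, inv_mul_cancel, pow_succ, pow_zero, inv_one] at h ⊢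
    exact h
  · have h := rel34 H
    simp only [Cfsg.Spor.Ly.a, Cfsg.Spor.Ly.b, Cfsg.Spor.Ly.c, Cfsg.Spor.Ly.d, Cfsg.Spor.Ly.e, Cfsg.Spor.Ly.c1, Cfsg.Spor.Ly.c2, Cfsg.Spor.Ly.c3, Cfsg.Spor.Ly.c4, Cfsg.Spor.Ly.c5, List.map_cons, List.map_nil, List.prod_cons, List.prod_nil, gJ, map_mul, map_inv, map_pow, FreeGroup.lift_apply_of, e1, e3, e2, mul_assoc, mul_inv_rev, inv_inv, mul_one, one_mul, mul_inv_cancel_left, inv_mul_cancel_left, mul_inv_cancel, inv_mul_cancel, pow_succ, pow_zero, inv_one] at h ⊢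
    exact h
  · have h := rel26 H
    simp only [Cfsg.Spor.Ly.a, Cfsg.Spor.Ly.b, Cfsg.Spor.Ly.c, Cfsg.Spor.Ly.d, Cfsg.Spor.Ly.e, Cfsg.Spor.Ly.c1, Cfsg.Spor.Ly.c2, Cfsg.Spor.Ly.c3, Cfsg.Spor.Ly.c4, Cfsg.Spor.Ly.c5, List.map_cons, List.map_nil, List.prod_cons, List.prod_nil, gJ, map_mul, map_inv, map_pow, FreeGroup.lift_apply_of, e1, e3, e2, mul_assoc, mul_inv_rev, inv_inv, mul_one, one_mul, mul_inv_cancel_left, inv_mul_cancel_left, mul_inv_cancel, inv_mul_cancel, pow_succ, pow_zero, inv_one] at h ⊢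
    exact h
  · have h := rel43 H
    simp only [Cfsg.Spor.Ly.a, Cfsg.Spor.Ly.b, Cfsg.Spor.Ly.c, Cfsg.Spor.Ly.d, Cfsg.Spor.Ly.e, Cfsg.Spor.Ly.c1, Cfsg.Spor.Ly.c2, Cfsg.Spor.Ly.c3, Cfsg.Spor.Ly.c4, Cfsg.Spor.Ly.c5, List.map_cons, List.map_nil, List.prod_cons, List.prod_nil, gJ, map_mul, map_inv, map_pow, FreeGroup.lift_apply_of, e1, e3, e2, mul_assoc, mul_inv_rev, inv_inv, mul_one, one_mul, mul_inv_cancel_left, inv_mul_cancel_left, mul_inv_cancel, inv_mul_cancel, pow_succ, pow_zero, inv_one] at h ⊢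
    exact h
  · have h := rel17 H
    simp only [Cfsg.Spor.Ly.a, Cfsg.Spor.Ly.b, Cfsg.Spor.Ly.c, Cfsg.Spor.Ly.d, Cfsg.Spor.Ly.e, Cfsg.Spor.Ly.c1, Cfsg.Spor.Ly.c2, Cfsg.Spor.Ly.c3, Cfsg.Spor.Ly.c4, Cfsg.Spor.Ly.c5, List.map_cons, List.map_nil, List.prod_cons, List.prod_nil, gJ, map_mul, map_inv, map_pow, FreeGroup.lift_apply_of, e1, e3, e2, mul_assoc, mul_inv_rev, inv_inv, mul_one, one_mul, mul_inv_cancel_left, inv_mul_cancel_left, mul_inv_cancel, inv_mul_cancel, pow_succ, pow_zero, inv_one] at h ⊢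
    exact h
  · have h := rel27 H
    simp only [Cfsg.Spor.Ly.a, Cfsg.Spor.Ly.b, Cfsg.Spor.Ly.c, Cfsg.Spor.Ly.d, Cfsg.Spor.Ly.e, Cfsg.Spor.Ly.c1, Cfsg.Spor.Ly.c2, Cfsg.Spor.Ly.c3, Cfsg.Spor.Ly.c4, Cfsg.Spor.Ly.c5, List.map_cons, List.map_nil, List.prod_cons, List.prod_nil, gJ, map_mul, map_inv, map_pow, FreeGroup.lift_apply_of, e1, e3, e2, mul_assoc, mul_inv_rev, inv_inv, mul_one, one_mul, mul_inv_cancel_left, inv_mul_cancel_left, mul_inv_cancel, inv_mul_cancel, pow_succ, pow_zero, inv_one] at h ⊢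
    exact h
  · have h := rel23 H
    simp only [Cfsg.Spor.Ly.a, Cfsg.Spor.Ly.b, Cfsg.Spor.Ly.c, Cfsg.Spor.Ly.d, Cfsg.Spor.Ly.e, Cfsg.Spor.Ly.c1, Cfsg.Spor.Ly.c2, Cfsg.Spor.Ly.c3, Cfsg.Spor.Ly.c4, Cfsg.Spor.Ly.c5, List.map_cons, List.map_nil, List.prod_cons, List.prod_nil, gJ, map_mul, map_inv, map_pow, FreeGroup.lift_apply_of, e1, e3, e2, mul_assoc, mul_inv_rev, inv_inv, mul_one, one_mul, mul_inv_cancel_left, inv_mul_cancel_left, mul_inv_cancel, inv_mul_cancel, pow_succ, pow_zero, inv_one] at h ⊢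
    exact h
  · have h := rel24 H
    simp only [Cfsg.Spor.Ly.a, Cfsg.Spor.Ly.b, Cfsg.Spor.Ly.c, Cfsg.Spor.Ly.d, Cfsg.Spor.Ly.e, Cfsg.Spor.Ly.c1, Cfsg.Spor.Ly.c2, Cfsg.Spor.Ly.c3, Cfsg.Spor.Ly.c4, Cfsg.Spor.Ly.c5, List.map_cons, List.map_nil, List.prod_cons, List.prod_nil, gJ, map_mul, map_inv, map_pow, FreeGroup.lift_apply_of, e1, e3, e2, mul_assoc, mul_inv_rev, inv_inv, mul_one, one_mul, mul_inv_cancel_left, inv_mul_cancel_left, mul_inv_cancel, inv_mul_cancel, pow_succ, pow_zero, inv_one] at h ⊢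
    exact h
  · have h := rel32 H
    simp only [Cfsg.Spor.Ly.a, Cfsg.Spor.Ly.b, Cfsg.Spor.Ly.c, Cfsg.Spor.Ly.d, Cfsg.Spor.Ly.e, Cfsg.Spor.Ly.c1, Cfsg.Spor.Ly.c2, Cfsg.Spor.Ly.c3, Cfsg.Spor.Ly.c4, Cfsg.Spor.Ly.c5, List.map_cons, List.map_nil, List.prod_cons, List.prod_nil, gJ, map_mul, map_inv, map_pow, FreeGroup.lift_apply_of, e1, e3, e2, mul_assoc, mul_inv_rev, inv_inv, mul_one, one_mul, mul_inv_cancel_left, inv_mul_cancel_left, mul_inv_cancel, inv_mul_cancel, pow_succ, pow_zero, inv_one] at h ⊢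
    exact h
  · have h := rel5 H
    simp only [Cfsg.Spor.Ly.a, Cfsg.Spor.Ly.b, Cfsg.Spor.Ly.c, Cfsg.Spor.Ly.d, Cfsg.Spor.Ly.e, Cfsg.Spor.Ly.c1, Cfsg.Spor.Ly.c2, Cfsg.Spor.Ly.c3, Cfsg.Spor.Ly.c4, Cfsg.Spor.Ly.c5, List.map_cons, List.map_nil, List.prod_cons, List.prod_nil, gJ, map_mul, map_inv, map_pow, FreeGroup.lift_apply_of, e1, e3, e2, mul_assoc, mul_inv_rev, inv_inv, mul_one, one_mul, mul_inv_cancel_left, inv_mul_cancel_left, mul_inv_cancel, inv_mul_cancel, pow_succ, pow_zero, inv_one] at h ⊢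
    exact h
  · have h := rel35 H
    simp only [Cfsg.Spor.Ly.a, Cfsg.Spor.Ly.b, Cfsg.Spor.Ly.c, Cfsg.Spor.Ly.d, Cfsg.Spor.Ly.e, Cfsg.Spor.Ly.c1, Cfsg.Spor.Ly.c2, Cfsg.Spor.Ly.c3, Cfsg.Spor.Ly.c4, Cfsg.Spor.Ly.c5, List.map_cons, List.map_nil, List.prod_cons, List.prod_nil, gJ, map_mul, map_inv, map_pow, FreeGroup.lift_apply_of, e1, e3, e2, mul_assoc, mul_inv_rev, inv_inv, mul_one, one_mul, mul_inv_cancel_left, inv_mul_cancel_left, mul_inv_cancel, inv_mul_cancel, pow_succ, pow_zero, inv_one] at h ⊢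
    exact h
  · have h := rel37 H
    simp only [Cfsg.Spor.Ly.a, Cfsg.Spor.Ly.b, Cfsg.Spor.Ly.c, Cfsg.Spor.Ly.d, Cfsg.Spor.Ly.e, Cfsg.Spor.Ly.c1, Cfsg.Spor.Ly.c2, Cfsg.Spor.Ly.c3, Cfsg.Spor.Ly.c4, Cfsg.Spor.Ly.c5, List.map_cons, List.map_nil, List.prod_cons, List.prod_nil, gJ, map_mul, map_inv, map_pow, FreeGroup.lift_apply_of, e1, e3, e2, mul_assoc, mul_inv_rev, inv_inv, mul_one, one_mul, mul_inv_cancel_left, inv_mul_cancel_left, mul_inv_cancel, inv_mul_cancel, pow_succ, pow_zero, inv_one] at h ⊢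
    exact h
  · have h := rel38 H
    simp only [Cfsg.Spor.Ly.a, Cfsg.Spor.Ly.b, Cfsg.Spor.Ly.c, Cfsg.Spor.Ly.d, Cfsg.Spor.Ly.e, Cfsg.Spor.Ly.c1, Cfsg.Spor.Ly.c2, Cfsg.Spor.Ly.c3, Cfsg.Spor.Ly.c4, Cfsg.Spor.Ly.c5, List.map_cons, List.map_nil, List.prod_cons, List.prod_nil, gJ, map_mul, map_inv, map_pow, FreeGroup.lift_apply_of, e1, e3, e2, mul_assoc, mul_inv_rev, inv_inv, mul_one, one_mul, mul_inv_cancel_left, inv_mul_cancel_left, mul_inv_cancel, inv_mul_cancel, pow_succ, pow_zero, inv_one] at h ⊢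
    exact h
  · have h := rel39 H
    simp only [Cfsg.Spor.Ly.a, Cfsg.Spor.Ly.b, Cfsg.Spor.Ly.c, Cfsg.Spor.Ly.d, Cfsg.Spor.Ly.e, Cfsg.Spor.Ly.c1, Cfsg.Spor.Ly.c2, Cfsg.Spor.Ly.c3, Cfsg.Spor.Ly.c4, Cfsg.Spor.Ly.c5, List.map_cons, List.map_nil, List.prod_cons, List.prod_nil, gJ, map_mul, map_inv, map_pow, FreeGroup.lift_apply_of, e1, e3, e2, mul_assoc, mul_inv_rev, inv_inv, mul_one, one_mul, mul_inv_cancel_left, inv_mul_cancel_left, mul_inv_cancel, inv_mul_cancel, pow_succ, pow_zero, inv_one] at h ⊢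
    exact h
  · have h := rel29 H
    simp only [Cfsg.Spor.Ly.a, Cfsg.Spor.Ly.b, Cfsg.Spor.Ly.c, Cfsg.Spor.Ly.d, Cfsg.Spor.Ly.e, Cfsg.Spor.Ly.c1, Cfsg.Spor.Ly.c2, Cfsg.Spor.Ly.c3, Cfsg.Spor.Ly.c4, Cfsg.Spor.Ly.c5, List.map_cons, List.map_nil, List.prod_cons, List.prod_nil, gJ, map_mul, map_inv, map_pow, FreeGroup.lift_apply_of, e1, e3, e2, mul_assoc, mul_inv_rev, inv_inv, mul_one, one_mul, mul_inv_cancel_left, inv_mul_cancel_left, mul_inv_cancel, inv_mul_cancel, pow_succ, pow_zero, inv_one] at h ⊢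
    exact h
  · simp only [List.map_cons, List.map_nil, List.prod_cons, List.prod_nil, gJ, map_mul, map_inv, map_pow, FreeGroup.lift_apply_of, e1, e3, e2, mul_assoc, mul_inv_rev, inv_inv, mul_one, one_mul, mul_inv_cancel_left, inv_mul_cancel_left, mul_inv_cancel, inv_mul_cancel, pow_succ, pow_zero, inv_one]
  · simp only [List.map_cons, List.map_nil, List.prod_cons, List.prod_nil, gJ, map_mul, map_inv, map_pow, FreeGroup.lift_apply_of, e1, e3, e2, mul_assoc, mul_inv_rev, inv_inv, mul_one, one_mul, mul_inv_cancel_left, inv_mul_cancel_left, mul_inv_cancel, inv_mul_cancel, pow_succ, pow_zero, inv_one]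
  · simp only [List.map_cons, List.map_nil, List.prod_cons, List.prod_nil, gJ, map_mul, map_inv, map_pow, FreeGroup.lift_apply_of, e1, e3, e2, mul_assoc, mul_inv_rev, inv_inv, mul_one, one_mul, mul_inv_cancel_left, inv_mul_cancel_left, mul_inv_cancel, inv_mul_cancel, pow_succ, pow_zero, inv_one]
  · simp only [List.map_cons, List.map_nil, List.prod_cons, List.prod_nil, gJ, map_mul, map_inv, map_pow, FreeGroup.lift_apply_of, e1, e3, e2, mul_assoc, mul_inv_rev, inv_inv, mul_one, one_mul, mul_inv_cancel_left, inv_mul_cancel_left, mul_inv_cancel, inv_mul_cancel, pow_succ, pow_zero, inv_one]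
  · simp only [List.map_cons, List.map_nil, List.prod_cons, List.prod_nil, gJ, map_mul, map_inv, map_pow, FreeGroup.lift_apply_of, e1, e3, e2, mul_assoc, mul_inv_rev, inv_inv, mul_one, one_mul, mul_inv_cancel_left, inv_mul_cancel_left, mul_inv_cancel, inv_mul_cancel, pow_succ, pow_zero, inv_one]
  · simp only [List.map_cons, List.map_nil, List.prod_cons, List.prod_nil, gJ, map_mul, map_inv, map_pow, FreeGroup.lift_apply_of, e1, e3, e2, mul_assoc, mul_inv_rev, inv_inv, mul_one, one_mul, mul_inv_cancel_left, inv_mul_cancel_left, mul_inv_cancel, inv_mul_cancel, pow_succ, pow_zero, inv_one]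
  · simp only [List.map_cons, List.map_nil, List.prod_cons, List.prod_nil, gJ, map_mul, map_inv, map_pow, FreeGroup.lift_apply_of, e1, e3, e2, mul_assoc, mul_inv_rev, inv_inv, mul_one, one_mul, mul_inv_cancel_left, inv_mul_cancel_left, mul_inv_cancel, inv_mul_cancel, pow_succ, pow_zero, inv_one]
  · simp only [List.map_cons, List.map_nil, List.prod_cons, List.prod_nil, gJ, map_mul, map_inv, map_pow, FreeGroup.lift_apply_of, e1, e3, e2, mul_assoc, mul_inv_rev, inv_inv, mul_one, one_mul, mul_inv_cancel_left, inv_mul_cancel_left, mul_inv_cancel, inv_mul_cancel, pow_succ, pow_zero, inv_one]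
  · simp only [List.map_cons, List.map_nil, List.prod_cons, List.prod_nil, gJ, map_mul, map_inv, map_pow, FreeGroup.lift_apply_of, e1, e3, e2, mul_assoc, mul_inv_rev, inv_inv, mul_one, one_mul, mul_inv_cancel_left, inv_mul_cancel_left, mul_inv_cancel, inv_mul_cancel, pow_succ, pow_zero, inv_one]
  · simp only [List.map_cons, List.map_nil, List.prod_cons, List.prod_nil, gJ, map_mul, map_inv, map_pow, FreeGroup.lift_apply_of, e1, e3, e2, mul_assoc, mul_inv_rev, inv_inv, mul_one, one_mul, mul_inv_cancel_left, inv_mul_cancel_left, mul_inv_cancel, inv_mul_cancel, pow_succ, pow_zero, inv_one]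
  · simp only [List.map_cons, List.map_nil, List.prod_cons, List.prod_nil, gJ, map_mul, map_inv, map_pow, FreeGroup.lift_apply_of, e1, e3, e2, mul_assoc, mul_inv_rev, inv_inv, mul_one, one_mul, mul_inv_cancel_left, inv_mul_cancel_left, mul_inv_cancel, inv_mul_cancel, pow_succ, pow_zero, inv_one]
  · simp only [List.map_cons, List.map_nil, List.prod_cons, List.prod_nil, gJ, map_mul, map_inv, map_pow, FreeGroup.lift_apply_of, e1, e3, e2, mul_assoc, mul_inv_rev, inv_inv, mul_one, one_mul, mul_inv_cancel_left, inv_mul_cancel_left, mul_inv_cancel, inv_mul_cancel, pow_succ, pow_zero, inv_one]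
  · simp only [List.map_cons, List.map_nil, List.prod_cons, List.prod_nil, gJ, map_mul, map_inv, map_pow, FreeGroup.lift_apply_of, e1, e3, e2, mul_assoc, mul_inv_rev, inv_inv, mul_one, one_mul, mul_inv_cancel_left, inv_mul_cancel_left, mul_inv_cancel, inv_mul_cancel, pow_succ, pow_zero, inv_one]
  · simp only [List.map_cons, List.map_nil, List.prod_cons, List.prod_nil, gJ, map_mul, map_inv, map_pow, FreeGroup.lift_apply_of, e1, e3, e2, mul_assoc, mul_inv_rev, inv_inv, mul_one, one_mul, mul_inv_cancel_left, inv_mul_cancel_left, mul_inv_cancel, inv_mul_cancel, pow_succ, pow_zero, inv_one]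

theorem mm_ok {f : Gen → Λ} (H : Rel f) : ∀ x y, (gJ f x * gJ f y) ^ H34.TCLyA.mm x y = 1 := by
  have h : gJ f .e * gJ f .e = 1 := by
    have h := rel30 H
    simp only [Cfsg.Spor.Ly.e, pow_two, map_mul, FreeGroup.lift_apply_of] at h
    exact h
  intro x y
  cases x <;> cases y <;> first | exact pow_zero _ | (change (gJ f .e * gJ f .e) ^ 1 = 1; rw [h, pow_one])

end H34.LyA
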