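import Cfsg.Agent.Lib.H34.LyA

/-! # `G₂(5)` from relations 1–44: order bound and isomorphism -/

set_option autoImplicit false
set_option maxRecDepth 100000
set_option linter.all false

namespace H34.LyA

open H34.IsoRow

/-- the presented group -/
abbrev P : Type := PG H34.TCLyA.mm H34.TCLyA.extra

/-- generators -/
def gA : H34.TCLyA.Lt → P := gen H34.TCLyA.mm H34.TCLyA.extra

def iB : H34.TCLyB.Lt → H34.TCLyA.Lt
  | .a => .a
  | .ai => .ai
  | .b => .b
  | .bi => .bi
  | .c => .c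
  | .ci => .ci
  | .u => .u
  | .ui => .ui
  | .v => .v
  | .vi => .vi
  | .w => .w
  | .wi => .wi

def iC : H34.TCLyC.Lt → H34.TCLyB.Lt
  | .a => .a
  | .ai => .ai
  | .b => .b
  | .bi => .bi

def gB : H34.TCLyB.Lt → P := fun x => gA (iB x)
def gC : H34.TCLyC.Lt → P := fun x => gB (iC x)

theorem hpA : ∀ x y, (gA x * gA y) ^ H34.TCLyA.mm x y = 1 := gen_hp

theorem heA : ∀ p ∈ H34.TCLyA.extra, ((p.1.map gA).prod) ^ p.2 = 1 := gen_he

theorem inv_of {x y : H34.TCLyA.Lt} (h : ([x, y], 1) ∈ H34.TCLyA.extra) : gA y = (gA x)⁻¹ := by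
  have h1 := heA _ h
  simp only [List.map_cons, List.map_nil, List.prod_cons, List.prod_nil, mul_one, pow_one] at h1
  exact (inv_eq_of_mul_eq_one_right h1).symm

theorem hinvA : ∀ x, gA (H34.TCLyA.inv x) = (gA x)⁻¹ := by
  have he : gA .e = (gA .e)⁻¹ := by
    have h := hpA .e .e
    change (gA .e * gA .e) ^ 1 = 1 at h
    rw [pow_one] at h
    exact (inv_eq_of_mul_eq_one_right h).symm
  intro x
  cases x
  case e => exact he
  all_goals exact inv_of (by decide)

theorem hinvB : ∀ x, gB (H34.TCLyB.inv x) = (gB x)⁻¹ := by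
  intro x
  have h : iB (H34.TCLyB.inv x) = H34.TCLyA.inv (iB x) := by cases x <;> rfl
  change gA (iB (H34.TCLyB.inv x)) = (gA (iB x))⁻¹
  rw [h]
  exact hinvA _

theorem hinvC : ∀ x, gC (H34.TCLyC.inv x) = (gC x)⁻¹ := by
  intro x
  have h : iC (H34.TCLyC.inv x) = H34.TCLyB.inv (iC x) := by cases x <;> rfl
  change gB (iC (H34.TCLyC.inv x)) = (gB (iC x))⁻¹
  rw [h]
  exact hinvB _

theorem exB : ∀ p ∈ H34.TCLyB.extra, (p.1.map iB, p.2) ∈ H34.TCLyA.extra := by decide +kernel

theorem exC : ∀ p ∈ H34.TCLyC.extra, (p.1.map iC, p.2) ∈ H34.TCLyB.extra := by decide +kernel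

theorem heB : ∀ p ∈ H34.TCLyB.extra, ((p.1.map gB).prod) ^ p.2 = 1 := by
  intro p hp
  have h := heA _ (exB p hp)
  rw [List.map_map] at h
  exact h

theorem heC : ∀ p ∈ H34.TCLyC.extra, ((p.1.map gC).prod) ^ p.2 = 1 := by
  intro p hp
  have h := heB _ (exC p hp)
  rw [List.map_map] at h
  exact h

theorem cA : (Subgroup.closure (Set.range gB)).relIndex (Subgroup.closure (Set.range gA)) ≤ 3906 ∧
    (Subgroup.closure (Set.range gB)).relIndex (Subgroup.closure (Set.range gA)) ≠ 0 := by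
  refine H34.TCLyA.main hinvA hpA heA ?_
  intro r hr
  have h : ∀ x, gA (iB x) ∈ Subgroup.closure (Set.range gB) := fun x => Subgroup.subset_closure ⟨x, rfl⟩
  simp only [H34.TCLyA.subs, List.mem_cons, List.not_mem_nil, or_false] at hr
  rcases hr with rfl | rfl | rfl
  · simpa [iB, iC] using h .a
  · simpa [iB, iC] using h .b
  · simpa [iB, iC] using h .c

theorem cB : (Subgroup.closure (Set.range gC)).relIndex (Subgroup.closure (Set.range gB)) ≤ 3125 ∧
    (Subgroup.closure (Set.range gC)).relIndex (Subgroup.closure (Set.range gB)) ≠ 0 := by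
  refine H34.TCLyB.main hinvB (fun x y => pow_zero _) heB ?_
  intro r hr
  have h : ∀ x, gB (iC x) ∈ Subgroup.closure (Set.range gC) := fun x => Subgroup.subset_closure ⟨x, rfl⟩
  simp only [H34.TCLyB.subs, List.mem_cons, List.not_mem_nil, or_false] at hr
  rcases hr with rfl | rfl
  · simpa [iB, iC] using h .a
  · simpa [iB, iC] using h .b

theorem cC : (⊥ : Subgroup P).relIndex (Subgroup.closure (Set.range gC)) ≤ 480 ∧
    (⊥ : Subgroup P).relIndex (Subgroup.closure (Set.range gC)) ≠ 0 := by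
  refine H34.TCLyC.main hinvC (fun x y => pow_zero _) heC ?_
  intro r hr
  simp [H34.TCLyC.subs] at hr

theorem card_P : Nat.card P ≤ 5859000000 ∧ Nat.card P ≠ 0 := by
  have h1 : Subgroup.closure (Set.range gC) ≤ Subgroup.closure (Set.range gB) :=
    Subgroup.closure_mono (by rintro _ ⟨x, rfl⟩; exact ⟨iC x, rfl⟩)
  have h2 : Subgroup.closure (Set.range gB) ≤ Subgroup.closure (Set.range gA) :=
    Subgroup.closure_mono (by rintro _ ⟨x, rfl⟩; exact ⟨iB x, rfl⟩)
  have h3 : Subgroup.closure (Set.range gA) = ⊤ := gen_top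
  have e1 := Subgroup.relIndex_mul_relIndex (⊥ : Subgroup P) _ _ bot_le h1
  have e2 := Subgroup.relIndex_mul_relIndex (⊥ : Subgroup P) _ _ bot_le h2
  have e3 : (⊥ : Subgroup P).relIndex (Subgroup.closure (Set.range gA)) = Nat.card P := by
    rw [h3, Subgroup.relIndex_top_right, Subgroup.index_bot]
  rw [← e3, ← e2, ← e1]
  have a1 := cA
  have a2 := cB
  have a3 := cC
  refine ⟨?_, mul_ne_zero (mul_ne_zero a3.2 a2.2) a1.2⟩
  calc _ ≤ 480 * 3125 * 3906 := Nat.mul_le_mul (Nat.mul_le_mul a3.1 a2.1) a1.1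
    _ = 5859000000 := by norm_num

/-! ### homomorphisms from `P` -/

theorem exists_hom' {Λ : Type*} [Group Λ] {f : Cfsg.Spor.Ly.Gen → Λ} (H : Rel f) :
    ∃ φ : P →* Λ, ∀ x, φ (gA x) = gJ f x :=
  exists_hom (gJ f) (mm_ok H) (ext_ok H)

/-- `P` is generated by `a, b, c, d` -/
theorem gen4 : Subgroup.closure ({gA .a, gA .b, gA .c, gA .d} : Set P) = ⊤ := by
  set C := Subgroup.closure ({gA .a, gA .b, gA .c, gA .d} : Set P) with hC
  have ha : gA .a ∈ C := Subgroup.subset_closure (by simp)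
  have hb : gA .b ∈ C := Subgroup.subset_closure (by simp)
  have hc : gA .c ∈ C := Subgroup.subset_closure (by simp)
  have hd : gA .d ∈ C := Subgroup.subset_closure (by simp)
  have hai : gA .ai ∈ C := by rw [show gA .ai = (gA .a)⁻¹ from hinvA .a]; exact C.inv_mem ha
  have hbi : gA .bi ∈ C := by rw [show gA .bi = (gA .b)⁻¹ from hinvA .b]; exact C.inv_mem hb
  have hci : gA .ci ∈ C := by rw [show gA .ci = (gA .c)⁻¹ from hinvA .c]; exact C.inv_mem hc
  have hdi : gA .di ∈ C := by rw [show gA .di = (gA .d)⁻¹ from hinvA .d]; exact C.inv_mem hd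
  have key : ∀ (x : H34.TCLyA.Lt) (w : List H34.TCLyA.Lt), (x :: w, 1) ∈ H34.TCLyA.extra → (∀ y ∈ w, gA y ∈ C) → gA x ∈ C := by
    intro x w hw hm
    have h1 := heA _ hw
    simp only [List.map_cons, List.prod_cons, pow_one] at h1
    rw [eq_inv_of_mul_eq_one_left h1]
    refine C.inv_mem (C.list_prod_mem ?_)
    intro z hz
    obtain ⟨y, hy, rfl⟩ := List.mem_map.1 hz
    exact hm y hy
  have hu : gA .u ∈ C := key .u [.ai, .ci, .a] (by decide) (by
    intro y hy
    simp only [List.mem_cons, List.not_mem_nil, or_false] at hy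
    rcases hy with rfl | rfl | rfl <;> assumption)
  have hv : gA .v ∈ C := key .v [.b, .ci, .bi] (by decide) (by
    intro y hy
    simp only [List.mem_cons, List.not_mem_nil, or_false] at hy
    rcases hy with rfl | rfl | rfl <;> assumption)
  have hui : gA .ui ∈ C := by rw [show gA .ui = (gA .u)⁻¹ from hinvA .u]; exact C.inv_mem hu
  have hvi : gA .vi ∈ C := by rw [show gA .vi = (gA .v)⁻¹ from hinvA .v]; exact C.inv_mem hv
  have hw : gA .w ∈ C := key .w [.ui, .ci, .u, .c] (by decide) (by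
    intro y hy
    simp only [List.mem_cons, List.not_mem_nil, or_false] at hy
    rcases hy with rfl | rfl | rfl | rfl <;> assumption)
  have hwi : gA .wi ∈ C := by rw [show gA .wi = (gA .w)⁻¹ from hinvA .w]; exact C.inv_mem hw
  have he : gA .e ∈ C := key .e [.di, .ci, .di, .b, .ai, .bi, .ci, .di, .ai, .ci, .a, .ci, .ai, .c, .a, .b, .b] (by decide) (by
    intro y hy
    simp only [List.mem_cons, List.not_mem_nil, or_false] at hy
    rcases hy with rfl | rfl | rfl | rfl | rfl | rfl | rfl | rfl | rfl | rfl | rfl | rfl | rfl | rfl | rfl | rfl | rfl <;> assumption)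
  have h3 : Subgroup.closure (Set.range gA) = ⊤ := gen_top
  rw [eq_top_iff, ← h3, Subgroup.closure_le]
  rintro _ ⟨x, rfl⟩
  cases x <;> assumption

theorem range_eq {Λ : Type*} [Group Λ] {f : Cfsg.Spor.Ly.Gen → Λ} {φ : P →* Λ} (hφ : ∀ x, φ (gA x) = gJ f x) :
    φ.range = Subgroup.closure {f .a, f .b, f .c, f .d} := by
  have ha : φ (gA .a) = f .a := hφ .a
  have hb : φ (gA .b) = f .b := hφ .b
  have hc : φ (gA .c) = f .c := hφ .c
  have hd : φ (gA .d) = f .d := hφ .d
  rw [MonoidHom.range_eq_map, ← gen4, MonoidHom.map_closure]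
  simp only [Set.image_insert_eq, Set.image_singleton, ha, hb, hc, hd]

theorem fact5 : Fact (Nat.Prime 5) := ⟨by norm_num⟩
attribute [local instance] fact5

/-- **main**: relations 1–44 and `a ≠ 1` give `G₂(5)` -/
theorem main (hG : ∃ F : Cfsg.Spor.Ly.Gen → Cfsg.Lie.chevG2.group (ZMod 5), Rel F ∧
      Subgroup.closure {F .a, F .b, F .c, F .d} = ⊤)
    {Λ : Type*} [Group Λ] {f : Cfsg.Spor.Ly.Gen → Λ} (H : Rel f) (ha : f .a ≠ 1) :
    Nonempty (Subgroup.closure {f .a, f .b, f .c, f .d} ≃* Cfsg.Lie.chevG2.group (ZMod 5)) := by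
  obtain ⟨F, hF, hgen⟩ := hG
  obtain ⟨ψ, hψ⟩ := exists_hom' hF
  obtain ⟨φ, hφ⟩ := exists_hom' H
  have hs : Function.Surjective ψ := by
    rw [← MonoidHom.range_eq_top, range_eq hψ, hgen]
  have hcard : Nat.card (Cfsg.Lie.chevG2.group (ZMod 5)) = 5859000000 := by
    rw [Cfsg.Agent.S1059.result (F := ZMod 5) (ZMod.card 5)]
    norm_num
  obtain ⟨hP1, hP0⟩ := card_P
  have hbij := bij_of_surj ψ hs hP1 hP0 hcard.ge
  let E : P ≃* Cfsg.Lie.chevG2.group (ZMod 5) := MulEquiv.ofBijective ψ hbij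
  haveI : IsSimpleGroup (Cfsg.Lie.chevG2.group (ZMod 5)) :=
    (Cfsg.Agent.S1055.result (F := ZMod 5) ⟨2, by decide, by decide⟩).1
  haveI : Nontrivial P := E.toEquiv.nontrivial
  haveI : IsSimpleGroup P := IsSimpleGroup.isSimpleGroup_of_surjective E.symm.toMonoidHom E.symm.surjective
  have hinj : Function.Injective φ := by
    rw [← MonoidHom.ker_eq_bot_iff]
    rcases IsSimpleGroup.eq_bot_or_eq_top_of_normal φ.ker inferInstance with h | h
    · exact h
    · exfalso
      apply ha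
      have h1 : gA .a ∈ φ.ker := by rw [h]; trivial
      have h2 : φ (gA .a) = f .a := hφ .a
      rw [← h2]
      exact h1
  have e1 : P ≃* φ.range := MonoidHom.ofInjective hinj
  rw [range_eq hφ] at e1
  exact ⟨e1.symm.trans E⟩

end H34.LyA
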