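import Cfsg.Agent.Lib.H34.LyB

/-! # `⟨a, b, c, d⟩` in the presented Lyons group -/

set_option autoImplicit false

namespace H34.LyA

open Cfsg.Spor

attribute [local instance] fact5

/-- the subgroup `⟨a, b, c, d⟩` of the presented Lyons group is `G₂(5)` as soon as `a ≠ 1` -/
theorem fin (hG : ∃ F : Ly.Gen → Cfsg.Lie.chevG2.group (ZMod 5), (∀ r ∈ Ly.extra.take 44, FreeGroup.lift F r = 1) ∧
      Subgroup.closure {F .a, F .b, F .c, F .d} = ⊤)
    (hne : PresentedGroup.mk (coxRelators Ly.edges ∪ {r | r ∈ Ly.extra}) Ly.a ≠ 1) :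
    Nonempty (((Subgroup.closure ({Ly.a, Ly.b, Ly.c, Ly.d} : Set (FreeGroup Ly.Gen))).map
      (PresentedGroup.mk (coxRelators Ly.edges ∪ {r | r ∈ Ly.extra}))) ≃* Cfsg.Lie.chevG2.group (ZMod 5)) := by
  set φ := PresentedGroup.mk (coxRelators Ly.edges ∪ {r | r ∈ Ly.extra}) with hφ
  let f : Ly.Gen → PresentedGroup (coxRelators Ly.edges ∪ {r | r ∈ Ly.extra}) := fun x => φ (FreeGroup.of x)
  have hl : FreeGroup.lift f = φ := by
    ext x
    simp [f]
  have H : Rel f := by
    intro r hr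
    rw [hl]
    exact PresentedGroup.one_of_mem (Or.inr (List.mem_of_mem_take hr))
  have h := main hG H hne
  have e : (Subgroup.closure ({Ly.a, Ly.b, Ly.c, Ly.d} : Set (FreeGroup Ly.Gen))).map φ =
      Subgroup.closure {f .a, f .b, f .c, f .d} := by
    rw [MonoidHom.map_closure]
    congr 1
    simp only [Set.image_insert_eq, Set.image_singleton]
    rfl
  rw [e]
  exact h

end H34.LyA
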