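import Cfsg.Agent.Lib.H34.LyC
import Cfsg.Agent.Lib.H41.LyG2

/-! # `⟨a, b, c, d⟩ ≅ G₂(5)` from `a ≠ 1` -/

set_option autoImplicit false

namespace H34.LyA

open Cfsg.Spor

attribute [local instance] fact5

theorem fin' (hne : PresentedGroup.mk (coxRelators Ly.edges ∪ {r | r ∈ Ly.extra}) Ly.a ≠ 1) :
    ∃ (K : Type) (_ : Field K) (_ : Fintype K), Fintype.card K = 5 ∧
      Nonempty (((Subgroup.closure ({Ly.a, Ly.b, Ly.c, Ly.d} : Set (FreeGroup Ly.Gen))).map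
      (PresentedGroup.mk (coxRelators Ly.edges ∪ {r | r ∈ Ly.extra}))) ≃* Cfsg.Lie.chevG2.group K) := by
  obtain ⟨F, h1, -, h2⟩ := H41.LyG.main
  exact ⟨ZMod 5, inferInstance, inferInstance, ZMod.card 5, fin ⟨F, h1, h2⟩ hne⟩

end H34.LyA
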